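import Mathlib
import Cfsg.Prelude.Def_Solvable

set_option autoImplicit false

/-!
# A subtype-free form of "the `p'`-core of a subgroup is non-trivial"
-/

namespace Cfsg.Agent.Lib.Helper43.AutSp4

variable {G : Type*} [Group G]

/-- `D` has a non-trivial normal subgroup of order prime to `p`. -/
def HasCore (p : ℕ) (D : Subgroup G) : Prop :=
  ∃ M : Subgroup G, M ≤ D ∧ (∀ d ∈ D, ∀ a ∈ M, d * a * d⁻¹ ∈ M) ∧ (Nat.card M).Coprime p ∧ M ≠ ⊥

theorem pPrimeCore_ne_bot_iff (p : ℕ) (D : Subgroup G) :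
    Cfsg.pPrimeCore p ↥D ≠ ⊥ ↔ HasCore p D := by
  unfold Cfsg.pPrimeCore
  rw [Ne, sSup_eq_bot]
  push Not
  constructor
  · rintro ⟨N, ⟨hN, hc⟩, hne⟩
    refine ⟨N.map D.subtype, Subgroup.map_subtype_le N, ?_, ?_, ?_⟩
    · rintro d hd _ ⟨n, hn, rfl⟩
      exact ⟨⟨d, hd⟩ * n * ⟨d, hd⟩⁻¹, hN.conj_mem n hn ⟨d, hd⟩, rfl⟩
    · rwa [Subgroup.card_map_of_injective (Subgroup.subtype_injective D)]
    · rwa [Ne, Subgroup.map_eq_bot_iff_of_injective _ (Subgroup.subtype_injective D)]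
  · rintro ⟨M, hMD, hnorm, hc, hne⟩
    refine ⟨M.subgroupOf D, ⟨⟨fun n hn d => ?_⟩, ?_⟩, ?_⟩
    · exact hnorm d.1 d.2 n.1 hn
    · rwa [Nat.card_congr (Subgroup.subgroupOfEquivOfLe hMD).toEquiv]
    · intro h
      apply hne
      rw [Subgroup.subgroupOf_eq_bot] at h
      rw [eq_bot_iff]
      intro a ha
      have : a ∈ M ⊓ D := ⟨ha, hMD ha⟩
      exact h.le_bot this

theorem HasCore.map (e : G ≃* G) {p : ℕ} {A : Subgroup G} {x : G}
    (h : HasCore p (A ⊓ Subgroup.centralizer {x})) :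
    HasCore p (A.map e.toMonoidHom ⊓ Subgroup.centralizer {e x}) := by
  obtain ⟨M, hMD, hnorm, hc, hne⟩ := h
  refine ⟨M.map e.toMonoidHom, ?_, ?_, ?_, ?_⟩
  · rintro _ ⟨a, ha, rfl⟩
    obtain ⟨h1, h2⟩ := hMD ha
    have h2' : a ∈ Subgroup.centralizer {x} := h2
    refine ⟨Subgroup.mem_map_of_mem _ h1, ?_⟩
    show e a ∈ Subgroup.centralizer {e x}
    rw [Subgroup.mem_centralizer_iff] at h2' ⊢
    intro y hy
    rw [Set.mem_singleton_iff] at hy
    subst hy
    have := h2' x rfl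
    rw [← map_mul, ← map_mul, this]
  · rintro _ ⟨⟨d, hd, rfl⟩, hd2⟩ _ ⟨a, ha, rfl⟩
    have hd2' : e d ∈ Subgroup.centralizer {e x} := hd2
    have hd3 : d ∈ Subgroup.centralizer {x} := by
      rw [Subgroup.mem_centralizer_iff] at hd2' ⊢
      intro y hy
      rw [Set.mem_singleton_iff] at hy
      subst hy
      have := hd2' (e y) rfl
      apply e.injective
      rw [map_mul, map_mul]
      exact this
    refine ⟨d * a * d⁻¹, hnorm d ⟨hd, hd3⟩ a ha, ?_⟩
    show e (d * a * d⁻¹) = e d * e a * (e d)⁻¹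
    rw [map_mul, map_mul, map_inv]
  · rwa [Subgroup.card_map_of_injective e.injective]
  · rwa [Ne, Subgroup.map_eq_bot_iff_of_injective _ e.injective]

theorem hasCore_map_iff (e : G ≃* G) {p : ℕ} {A : Subgroup G} {x : G} :
    HasCore p (A.map e.toMonoidHom ⊓ Subgroup.centralizer {e x}) ↔
      HasCore p (A ⊓ Subgroup.centralizer {x}) := by
  refine ⟨fun h => ?_, HasCore.map e⟩
  have h1 := HasCore.map e.symm h
  have h2 : (A.map e.toMonoidHom).map e.symm.toMonoidHom = A := by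
    rw [Subgroup.map_map]
    have : e.symm.toMonoidHom.comp e.toMonoidHom = MonoidHom.id G := by
      ext y
      simp
    rw [this, Subgroup.map_id]
  rwa [h2, MulEquiv.symm_apply_apply] at h1

end Cfsg.Agent.Lib.Helper43.AutSp4
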