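import Mathlib
import Cfsg.Agent.Lib.Helper43.AutPSp.Main

set_option autoImplicit false

/-!
# The structure theorem for automorphisms of `PSp` permuting the root subgroups

This is the relative version of `AutPSp.aut_structure`: instead of assuming that every
automorphism permutes the root subgroups, we work inside the subgroup `rootStab` of those
automorphisms which (together with their inverses) do.
-/

namespace Cfsg.Agent.Lib.Helper43.AutSp4

open Matrix Cfsg.Agent.Lib.Helper13 Cfsg.Agent.Lib.Helper43.AutPSp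

variable {m : ℕ} {F : Type*} [Field F]

local notation "V" => Fin m ⊕ Fin m → F
local notation "Mx" => Matrix (Fin m ⊕ Fin m) (Fin m ⊕ Fin m) F
set_option quotPrecheck false in
local notation "Sp" => ↥(Matrix.symplecticGroup (Fin m) F)
local notation "PSpm" => Cfsg.PSp m F
local notation "B" => Cfsg.sympForm m F
local notation "GLm" => GL (Fin m ⊕ Fin m) F

/-- An automorphism maps root subgroups to root subgroups. -/
def RootFwd (α : MulAut (Cfsg.PSp m F)) : Prop :=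
  ∀ u : Fin m ⊕ Fin m → F, u ≠ 0 → ∃ u' : Fin m ⊕ Fin m → F, u' ≠ 0 ∧ α '' Rt u = Rt u'

theorem RootFwd.one : RootFwd (1 : MulAut PSpm) := by
  intro u hu
  refine ⟨u, hu, ?_⟩
  ext x
  simp

theorem RootFwd.mul {α β : MulAut PSpm} (ha : RootFwd α) (hb : RootFwd β) : RootFwd (α * β) := by
  intro u hu
  obtain ⟨u', hu', e⟩ := hb u hu
  obtain ⟨u'', hu'', e'⟩ := ha u' hu'
  refine ⟨u'', hu'', ?_⟩
  rw [← e', ← e, Set.image_image]
  rfl

/-- The automorphisms permuting the root subgroups. -/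
def rootStab (m : ℕ) (F : Type*) [Field F] : Subgroup (MulAut (Cfsg.PSp m F)) where
  carrier := {α | RootFwd α ∧ RootFwd α⁻¹}
  mul_mem' := fun {a b} ha hb => ⟨ha.1.mul hb.1, by rw [_root_.mul_inv_rev]; exact hb.2.mul ha.2⟩
  one_mem' := ⟨RootFwd.one, by rw [inv_one]; exact RootFwd.one⟩
  inv_mem' := fun {a} ha => ⟨ha.2, by rw [inv_inv]; exact ha.1⟩

theorem mem_rootStab {α : MulAut PSpm} : α ∈ rootStab m F ↔ RootFwd α ∧ RootFwd α⁻¹ := Iff.rfl

theorem cg_mem_rootStab [NeZero m] (g : ↥(Cfsg.GSp m F)) : (cg g : MulAut PSpm) ∈ rootStab m F := by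
  have h : ∀ g : ↥(Cfsg.GSp m F), RootFwd (cg g : MulAut PSpm) := by
    intro g u hu
    refine ⟨((g : GLm) : Mx) *ᵥ u, ?_, cg_Rt g u⟩
    intro h0
    have := gl_inv_mulVec (g : GLm) u
    rw [h0, Matrix.mulVec_zero] at this
    exact hu this.symm
  exact ⟨h g, by rw [← map_inv]; exact h g⁻¹⟩

theorem fg_mem_rootStab (τ : RingAut F) : (fg τ : MulAut PSpm) ∈ rootStab m F := by
  have h : ∀ τ : RingAut F, RootFwd (fg τ : MulAut PSpm) := by
    intro τ u hu
    exact ⟨tw τ u, tw_ne_zero τ hu, fg_Rt τ u⟩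
  exact ⟨h τ, by rw [← map_inv]; exact h τ⁻¹⟩

theorem conj_mem_rootStab [NeZero m] (s : Sp) : MulAut.conj (pm s) ∈ rootStab m F := by
  rw [← cg_toGSp]
  exact cg_mem_rootStab _

open scoped Classical in
/-- The induced map on (representatives of) points. -/
noncomputable def phiS (α : ↥(rootStab m F)) (u : Fin m ⊕ Fin m → F) : Fin m ⊕ Fin m → F :=
  if hu : u ≠ 0 then (α.2.1 u hu).choose else 0

theorem phiS_ne_zero (α : ↥(rootStab m F)) {u : V} (hu : u ≠ 0) : phiS α u ≠ 0 := by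
  unfold phiS
  rw [dif_pos hu]
  exact (α.2.1 u hu).choose_spec.1

theorem phiS_Rt (α : ↥(rootStab m F)) {u : V} (hu : u ≠ 0) : α.1 '' Rt u = Rt (phiS α u) := by
  unfold phiS
  rw [dif_pos hu]
  exact (α.2.1 u hu).choose_spec.2

theorem phiS_par_of_image (hm : 2 ≤ m) (α : ↥(rootStab m F)) {u u' : V}
    (hu : u ≠ 0) (h : α.1 '' Rt u = Rt u') : Par u' (phiS α u) :=
  par_of_Rt_eq hm (phiS_ne_zero α hu) (by rw [← phiS_Rt α hu, h])

theorem phiS_par (hm : 2 ≤ m) (α : ↥(rootStab m F)) {u v : V} (hu : u ≠ 0)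
    (h : Par u v) : Par (phiS α u) (phiS α v) := by
  have hv : v ≠ 0 := h.ne_zero hu
  apply par_of_Rt_eq hm (phiS_ne_zero α hv)
  rw [← phiS_Rt α hv, ← phiS_Rt α hu, Rt_eq_of_par h]

theorem phiS_perp (hm : 2 ≤ m) (α : ↥(rootStab m F)) {u v : V} (hu : u ≠ 0)
    (hv : v ≠ 0) : B (phiS α u) (phiS α v) = 0 ↔ B u v = 0 := by
  rw [← Rt_comm_iff hm (phiS_ne_zero α hu), ← Rt_comm_iff hm hu, ← phiS_Rt α hu,
    ← phiS_Rt α hv]
  constructor
  · intro h x hx y hy
    have := h (α.1 x) ⟨x, hx, rfl⟩ (α.1 y) ⟨y, hy, rfl⟩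
    rw [← map_mul, ← map_mul] at this
    exact α.1.injective this
  · rintro h _ ⟨x, hx, rfl⟩ _ ⟨y, hy, rfl⟩
    rw [← map_mul, ← map_mul, h x hx y hy]

/-- Equivariance of the point map. -/
theorem phiS_equiv (hm : 2 ≤ m) (α : ↥(rootStab m F)) (x x' : Sp)
    (h : α.1 (pm x) = pm x') {y : V} (hy : y ≠ 0) :
    Par (x'.1 *ᵥ phiS α y) (phiS α (x.1 *ᵥ y)) := by
  have hxy : x.1 *ᵥ y ≠ 0 := mulVec_ne_zero x hy
  apply par_of_Rt_eq hm (phiS_ne_zero α hxy)
  rw [← phiS_Rt α hxy, ← conj_Rt, ← conj_Rt, ← phiS_Rt α hy, Set.image_image, Set.image_image]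
  apply Set.image_congr
  intro z _
  rw [map_mul, map_mul, map_inv, h]

theorem phiS_surj (hm : 2 ≤ m) (α : ↥(rootStab m F)) {v' : V} (hv' : v' ≠ 0) :
    ∃ v : V, v ≠ 0 ∧ Par (phiS α v) v' := by
  refine ⟨phiS α⁻¹ v', phiS_ne_zero α⁻¹ hv', ?_⟩
  apply (phiS_par_of_image hm α (phiS_ne_zero α⁻¹ hv') _).symm
  rw [← phiS_Rt α⁻¹ hv', Set.image_image]
  ext x
  simp

/-- The point map preserves lines. -/
theorem phiS_span (hm : 2 ≤ m) (α : ↥(rootStab m F)) {a b z : V} (ha : a ≠ 0)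
    (hb : b ≠ 0) (hz : z ≠ 0) (h : ∃ l k : F, z = l • a + k • b) :
    ∃ l k : F, phiS α z = l • phiS α a + k • phiS α b := by
  apply mem_span_pair_of_perp
  intro t' h1 h2
  by_cases ht' : t' = 0
  · rw [ht', sympForm_zero_left]
  · obtain ⟨t, ht, hpar⟩ := phiS_surj hm α ht'
    rw [hpar.perp_iff] at h1 h2 ⊢
    rw [phiS_perp hm α ht ha] at h1
    rw [phiS_perp hm α ht hb] at h2
    rw [phiS_perp hm α ht hz]
    obtain ⟨l, k, rfl⟩ := h
    rw [sympForm_add_right, sympForm_smul_right, sympForm_smul_right, h1, h2]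
    ring

section para

variable [NeZero m] (hm : 2 ≤ m)

include hm in
/-- A normalised automorphism preserves `InK` modulo the centre. -/
theorem InK_mapS (α : ↥(rootStab m F)) (hE : α.1 '' Rt (e0 : V) = Rt e0) {x : Sp} (hx : InK x) :
    ∃ x' : Sp, InK x' ∧ α.1 (pm x) = pm x' := by
  have hpe : Par (e0 : V) (phiS α e0) := phiS_par_of_image hm α e0_ne_zero hE
  obtain ⟨x₁, hx₁⟩ := pm_surjective (α.1 (pm x))
  -- `x₁` maps `e0` to `± e0`
  obtain ⟨a, ha⟩ : α.1 (pm (tvS e0 1)) ∈ Rt (e0 : V) := by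
    rw [← hE]
    exact ⟨_, ⟨1, rfl⟩, rfl⟩
  have ha0 : a ≠ 0 := by
    rintro rfl
    rw [tvS_zero, map_one] at ha
    have := α.1.injective (ha.symm.trans (map_one α.1).symm)
    exact pm_tvS_ne_one hm e0_ne_zero one_ne_zero this
  have hcomm : pm x₁ * pm (tvS e0 a) = pm (tvS e0 a) * pm x₁ := by
    rw [hx₁, ha, ← map_mul, ← map_mul, ← map_mul, ← map_mul]
    congr 2
    have := conj_tvS x e0 (1 : F)
    rw [hx.1] at this
    exact eq_mul_of_mul_inv_eq this
  obtain ⟨x', hx', he⟩ : ∃ x' : Sp, pm x' = α.1 (pm x) ∧ x'.1 *ᵥ (e0 : V) = e0 := by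
    rcases fix_e0_of_pm_comm hm ha0 x₁ hcomm with h | h
    · exact ⟨x₁, hx₁, h⟩
    · exact ⟨negS * x₁, by rw [pm_negS_mul, hx₁], by rw [negS_mulVec, h, neg_neg]⟩
  refine ⟨x', ⟨he, fun y hy => ?_⟩, hx'.symm⟩
  by_cases hy0 : y = 0
  · exact ⟨0, 0, by rw [hy0, Matrix.mulVec_zero, zero_smul, zero_smul, add_zero]⟩
  obtain ⟨y₀, hy₀, hpar⟩ := phiS_surj hm α hy0
  have hy₀e : B y₀ e0 = 0 := by
    rw [← phiS_perp hm α hy₀ e0_ne_zero, hpe.perp_iff', ← hpar.perp_iff]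
    exact hy
  obtain ⟨a₀, b₀, h₀⟩ := hx.2 y₀ hy₀e
  have hxy : x.1 *ᵥ y₀ ≠ 0 := mulVec_ne_zero x hy₀
  obtain ⟨l, k, hlk⟩ := phiS_span hm α hy₀ e0_ne_zero hxy ⟨a₀, b₀, h₀⟩
  obtain ⟨c, hc, hc'⟩ := phiS_equiv hm α x x' hx'.symm hy₀
  obtain ⟨d, hd, rfl⟩ := hpar
  obtain ⟨d', hd', hpe'⟩ := hpe
  have h1 : x'.1 *ᵥ phiS α y₀ = c⁻¹ • phiS α (x.1 *ᵥ y₀) := by
    rw [hc', smul_smul, inv_mul_cancel₀ hc, one_smul]
  refine ⟨c⁻¹ * l, d * c⁻¹ * k * d', ?_⟩
  rw [Matrix.mulVec_smul, h1, hlk, hpe']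
  module

include hm in
/-- A normalised automorphism maps the radical to itself. -/
theorem Em_mapS (α : ↥(rootStab m F)) (hE : α.1 '' Rt (e0 : V) = Rt e0) {w : V} (hw : InW w)
    (c : F) : ∃ (w' : V) (c' : F), InW w' ∧ α.1 (pm (Em w c)) = pm (Em w' c') := by
  by_cases h2 : (2 : F) = 0
  · obtain ⟨x', hx', e⟩ := InK_mapS hm α hE (Em_InK hw c)
    obtain ⟨w', c', hw', rfl⟩ := hx'.mem_of_two h2
    exact ⟨w', c', hw', e⟩
  · have hw2 : InW ((2 : F)⁻¹ • w) := hw.smul _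
    have hsq : Em ((2 : F)⁻¹ • w) ((2 : F)⁻¹ * c) * Em ((2 : F)⁻¹ • w) ((2 : F)⁻¹ * c) = Em w c := by
      rw [Em_mul hw2 hw2, sympForm_self]
      congr 1
      · rw [← add_smul]
        have : (2 : F)⁻¹ + (2 : F)⁻¹ = 1 := by field_simp; norm_num
        rw [this, one_smul]
      · field_simp
        ring
    obtain ⟨x', hx', e⟩ := InK_mapS hm α hE (Em_InK hw2 ((2 : F)⁻¹ * c))
    obtain ⟨w', c', hw', e'⟩ := hx'.sq_mem
    refine ⟨w', c', hw', ?_⟩
    rw [← hsq, map_mul, map_mul, e, ← map_mul, e']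

include hm in
theorem exists_radDataS (α : ↥(rootStab m F)) (hE : α.1 '' Rt (e0 : V) = Rt e0) :
    ∃ (A : V → V) (l : V → F) (ψ : F → F), RadData α.1 A l ψ := by
  have h1 : ∀ w : V, ∃ (w' : V) (c' : F), InW w →
      (InW w' ∧ α.1 (pm (Em w 0)) = pm (Em w' c')) := by
    intro w
    by_cases hw : InW w
    · obtain ⟨w', c', hw', e⟩ := Em_mapS hm α hE hw 0
      exact ⟨w', c', fun _ => ⟨hw', e⟩⟩
    · exact ⟨0, 0, fun h => absurd h hw⟩
  choose A l hA using h1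
  have h2 : ∀ c : F, ∃ c' : F, α.1 (pm (tvS e0 c)) = pm (tvS e0 c') := by
    intro c
    have : α.1 (pm (tvS e0 c)) ∈ Rt (e0 : V) := by
      rw [← hE]
      exact ⟨_, ⟨c, rfl⟩, rfl⟩
    obtain ⟨c', hc'⟩ := this
    exact ⟨c', hc'.symm⟩
  choose ψ hψ using h2
  exact ⟨A, l, ψ, fun w hw => (hA w hw).1, fun w hw => (hA w hw).2, hψ⟩

variable {α : ↥(rootStab m F)} {A : (Fin m ⊕ Fin m → F) → (Fin m ⊕ Fin m → F)}
  {l : (Fin m ⊕ Fin m → F) → F} {ψ : F → F}

include hm in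
theorem rd_opp (D : RadData α.1 A l ψ) (hF : α.1 '' Rt (f0 : V) = Rt f0) {w : V} (hw : InW w)
    (c : F) : Par ((f0 : V) + A w + (l w + ψ c) • e0) (phiS α (f0 + w + c • e0)) := by
  have h1 := phiS_equiv hm α (Em w c) (Em (A w) (l w + ψ c)) (D.em' hw c) f0_ne_zero
  rw [Em_f0 hw] at h1
  have hpf : Par (f0 : V) (phiS α f0) := phiS_par_of_image hm α f0_ne_zero hF
  have h2 := hpf.mulVec (Em (A w) (l w + ψ c)).1
  rw [Em_f0 (D.mapsW w hw)] at h2
  exact h2.trans h1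

include hm in
theorem rd_perp_iff (D : RadData α.1 A l ψ) (hF : α.1 '' Rt (f0 : V) = Rt f0) {w w' : V}
    (hw : InW w) (hw' : InW w') (c c' : F) :
    (c' - c + B w w' = 0) ↔ ((l w' + ψ c') - (l w + ψ c) + B (A w) (A w') = 0) := by
  rw [← B_opp hw hw' c c', ← B_opp (D.mapsW w hw) (D.mapsW w' hw') (l w + ψ c) (l w' + ψ c'),
    ← phiS_perp hm α (opp_ne_zero hw c) (opp_ne_zero hw' c'),
    (rd_opp hm D hF hw c).perp_iff, (rd_opp hm D hF hw' c').perp_iff']

include hm in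
theorem rd_l_zero (D : RadData α.1 A l ψ) (hF : α.1 '' Rt (f0 : V) = Rt f0) {w : V}
    (hw : InW w) : l w = 0 := by
  have h := (rd_perp_iff hm D hF hw InW.zero 0 0).mp (by rw [sympForm_zero_right]; ring)
  rw [(D.zero hm).1, (D.zero hm).2, sympForm_zero_right] at h
  linear_combination -h

include hm in
theorem rd_B_A (D : RadData α.1 A l ψ) (hF : α.1 '' Rt (f0 : V) = Rt f0) {w w' : V}
    (hw : InW w) (hw' : InW w') : B (A w) (A w') = ψ (B w w') := by
  have h := (rd_perp_iff hm D hF hw hw' (B w w') 0).mp (by ring)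
  rw [rd_l_zero hm D hF hw, rd_l_zero hm D hF hw', D.psi_zero hm] at h
  linear_combination h

include hm in
theorem rd_A_add (D : RadData α.1 A l ψ) {w w' : V}
    (hw : InW w) (hw' : InW w') : A (w + w') = A w + A w' := by
  have h1 := Em_mul hw hw' (0 : F) 0
  have h2 := congrArg (fun x => α.1 (pm x)) h1
  simp only [map_mul] at h2
  rw [D.em w hw, D.em w' hw', D.em' (hw.add hw'), ← map_mul,
    Em_mul (D.mapsW w hw) (D.mapsW w' hw')] at h2
  exact (pm_Em_inj (by omega) ((D.mapsW w hw).add (D.mapsW w' hw')) (D.mapsW _ (hw.add hw')) h2).1.symm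

include hm in
theorem rd_A_inj (D : RadData α.1 A l ψ) (hF : α.1 '' Rt (f0 : V) = Rt f0) {w : V}
    (hw : InW w) (h : A w = 0) : w = 0 := by
  have h1 := D.em w hw
  rw [h, rd_l_zero hm D hF hw, Em_zero_zero, map_one] at h1
  have h2 : pm (Em w 0) = pm (Em (0 : V) 0) := by
    rw [Em_zero_zero, map_one]
    exact α.1.injective (h1.trans (map_one α.1).symm)
  exact (pm_Em_inj (by omega) hw InW.zero h2).1

include hm in
theorem rd_A_surj [Finite F] (D : RadData α.1 A l ψ) (hF : α.1 '' Rt (f0 : V) = Rt f0) {y : V}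
    (hy : InW y) : ∃ w : V, InW w ∧ A w = y := by
  let f : {w : V // InW w} → {w : V // InW w} := fun w => ⟨A w.1, D.mapsW w.1 w.2⟩
  have hinj : Function.Injective f := by
    rintro ⟨w, hw⟩ ⟨w', hw'⟩ h
    have h1 : A w = A w' := congrArg Subtype.val h
    have h2 := rd_A_add hm D (hw.sub hw') hw'
    rw [sub_add_cancel, h1] at h2
    have h3 : A (w - w') = 0 := by
      have h5 : A (w - w') + A w' = 0 + A w' := by rw [zero_add]; exact h2.symm
      exact add_right_cancel h5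
    have h4 := rd_A_inj hm D hF (hw.sub hw') h3
    exact Subtype.ext (sub_eq_zero.mp h4)
  obtain ⟨⟨w, hw⟩, h⟩ := Finite.surjective_of_injective hinj ⟨y, hy⟩
  exact ⟨w, hw, congrArg Subtype.val h⟩

include hm in
theorem rd_phi_W [Finite F] (D : RadData α.1 A l ψ) (hE : α.1 '' Rt (e0 : V) = Rt e0)
    (hF : α.1 '' Rt (f0 : V) = Rt f0) {w : V} (hw : InW w) (hw0 : w ≠ 0) :
    Par (A w) (phiS α w) := by
  have hpe : Par (e0 : V) (phiS α e0) := phiS_par_of_image hm α e0_ne_zero hE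
  have hpf : Par (f0 : V) (phiS α f0) := phiS_par_of_image hm α f0_ne_zero hF
  have hφW : InW (phiS α w) := by
    constructor
    · rw [← hpe.perp_iff', phiS_perp hm α hw0 e0_ne_zero]
      exact hw.1
    · rw [← hpf.perp_iff', phiS_perp hm α hw0 f0_ne_zero]
      exact hw.2
  have hAw0 : A w ≠ 0 := fun h => hw0 (rd_A_inj hm D hF hw h)
  apply par_of_perp_imp hAw0 (phiS_ne_zero α hw0)
  intro y hy
  rw [← B_prW' y _ (D.mapsW w hw)] at hy
  rw [← B_prW' y _ hφW]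
  obtain ⟨w₂, hw₂, hAw₂⟩ := rd_A_surj hm D hF (prW_inW y)
  rw [← hAw₂] at hy ⊢
  rw [rd_B_A hm D hF hw hw₂] at hy
  have h0 : B w w₂ = 0 := D.psi_inj hm (hy.trans (D.psi_zero hm).symm)
  have h1 : B ((f0 : V) + w₂ + (0 : F) • e0) w = 0 := by
    rw [sympForm_add_left, sympForm_add_left, sympForm_smul_left, hw.f0_left, B_swap_zero h0]
    ring
  rw [← phiS_perp hm α (opp_ne_zero hw₂ 0) hw0, (rd_opp hm D hF hw₂ 0).perp_iff] at h1
  rw [sympForm_add_left, sympForm_add_left, sympForm_smul_left, hφW.f0_left, hφW.e0_left] at h1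
  apply B_swap_zero
  linear_combination h1

include hm in
theorem rd_A_smul [Finite F] (D : RadData α.1 A l ψ) (hE : α.1 '' Rt (e0 : V) = Rt e0)
    (hF : α.1 '' Rt (f0 : V) = Rt f0) {w : V} (hw : InW w) (a : F) :
    A (a • w) = (ψ a / ψ 1) • A w := by
  by_cases ha : a = 0
  · rw [ha, zero_smul, (D.zero hm).1, D.psi_zero hm, zero_div, zero_smul]
  by_cases hw0 : w = 0
  · rw [hw0, smul_zero, (D.zero hm).1, smul_zero]
  have haw : a • w ≠ 0 := smul_ne_zero ha hw0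
  have h1 := rd_phi_W hm D hE hF hw hw0
  have h2 := rd_phi_W hm D hE hF (hw.smul a) haw
  have h3 : Par (phiS α w) (phiS α (a • w)) := phiS_par hm α hw0 ⟨a, ha, rfl⟩
  obtain ⟨t, -, ht⟩ := (h1.trans h3).trans h2.symm
  obtain ⟨w', hw', hww'⟩ := exists_inW_pair hw hw0
  have h4 := rd_B_A hm D hF (hw.smul a) hw'
  rw [ht, sympForm_smul_left, rd_B_A hm D hF hw hw', sympForm_smul_left, hww', mul_one] at h4
  have hψ1 : ψ 1 ≠ 0 := fun h => one_ne_zero (D.psi_inj hm (h.trans (D.psi_zero hm).symm))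
  rw [ht]
  congr 1
  rw [eq_div_iff hψ1, h4]

include hm in
theorem exists_paraS [Finite F] (α : ↥(rootStab m F)) (hE : α.1 '' Rt (e0 : V) = Rt e0)
    (hF : α.1 '' Rt (f0 : V) = Rt f0) :
    ∃ (A : V → V) (τ : F ≃+* F) (μ₀ : F), IsPara α.1 A τ μ₀ := by
  obtain ⟨A, l, ψ, D⟩ := exists_radDataS hm α hE
  have hψ1 : ψ 1 ≠ 0 := fun h => one_ne_zero (D.psi_inj hm (h.trans (D.psi_zero hm).symm))
  obtain ⟨w₀, hw₀, hw₀0⟩ := exists_inW_ne_zero (F := F) hm
  have hAw₀ : A w₀ ≠ 0 := fun h => hw₀0 (rd_A_inj hm D hF hw₀ h)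
  let τ₀ : F →+* F :=
    { toFun := fun a => ψ a / ψ 1
      map_one' := div_self hψ1
      map_mul' := by
        intro a b
        have h1 := rd_A_smul hm D hE hF hw₀ (a * b)
        rw [mul_smul, rd_A_smul hm D hE hF (hw₀.smul b) a, rd_A_smul hm D hE hF hw₀ b, smul_smul]
          at h1
        have h2 : (ψ a / ψ 1 * (ψ b / ψ 1) - ψ (a * b) / ψ 1) • A w₀ = 0 := by
          rw [sub_smul, h1, sub_self]
        rcases smul_eq_zero.mp h2 with h3 | h3
        · exact (sub_eq_zero.mp h3).symm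
        · exact absurd h3 hAw₀
      map_zero' := by rw [D.psi_zero hm, zero_div]
      map_add' := by
        intro a b
        rw [D.psi_add hm, add_div] }
  have hbij : Function.Bijective τ₀ :=
    ⟨τ₀.injective, Finite.surjective_of_injective τ₀.injective⟩
  refine ⟨A, RingEquiv.ofBijective τ₀ hbij, ψ 1, hψ1, D.mapsW, fun w w' hw hw' =>
    rd_A_add hm D hw hw', fun a w hw => rd_A_smul hm D hE hF hw a, fun w w' hw hw' => ?_,
    fun w c hw => ?_⟩
  · rw [rd_B_A hm D hF hw hw']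
    show ψ (B w w') = ψ 1 * (ψ (B w w') / ψ 1)
    field_simp
  · rw [D.em' hw, rd_l_zero hm D hF hw, zero_add]
    show pm (Em (A w) (ψ c)) = pm (Em (A w) (ψ 1 * (ψ c / ψ 1)))
    congr 2
    field_simp

include hm in
/-- An automorphism fixing the radical pointwise and the root group of `f0` is trivial. -/
theorem eq_one_of_fixS (α : ↥(rootStab m F))
    (hEm : ∀ (w : V) (c : F), InW w → α.1 (pm (Em w c)) = pm (Em w c))
    (hF : α.1 '' Rt (f0 : V) = Rt f0) : α.1 = 1 := by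
  have hpf : Par (f0 : V) (phiS α f0) := phiS_par_of_image hm α f0_ne_zero hF
  have hE : α.1 '' Rt (e0 : V) = Rt e0 := by
    have h1 : ∀ c : F, α.1 (pm (tvS e0 c)) = pm (tvS e0 c) := by
      intro c
      rw [← Em_zero, hEm 0 c InW.zero]
    apply Set.Subset.antisymm
    · rintro _ ⟨x, ⟨c, rfl⟩, rfl⟩
      exact ⟨c, (h1 c).symm⟩
    · rintro _ ⟨c, rfl⟩
      exact ⟨_, ⟨c, rfl⟩, h1 c⟩
  have hpe : Par (e0 : V) (phiS α e0) := phiS_par_of_image hm α e0_ne_zero hE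
  -- points off `e0^⊥`
  have h1 : ∀ y : V, B y e0 ≠ 0 → Par y (phiS α y) := by
    intro y hy
    have hy0 : y ≠ 0 := by
      rintro rfl
      exact hy (sympForm_zero_left m _)
    obtain ⟨w, hw, c, hyw⟩ : ∃ w : V, InW w ∧ ∃ c : F, y = B y e0 • ((f0 : V) + w + c • e0) := by
      refine ⟨(B y e0)⁻¹ • prW y, (prW_inW y).smul _, (B y e0)⁻¹ * B f0 y, ?_⟩
      have := decomp y
      rw [smul_add, smul_add, smul_smul, smul_smul, ← mul_assoc, mul_inv_cancel₀ hy, one_smul,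
        one_mul]
      nth_rewrite 1 [this]
      module
    have h2 := phiS_equiv hm α (Em w c) (Em w c) (hEm w c hw) f0_ne_zero
    rw [Em_f0 hw] at h2
    have h3 := hpf.mulVec (Em w c).1
    rw [Em_f0 hw] at h3
    have h4 : Par ((f0 : V) + w + c • e0) y := ⟨B y e0, hy, hyw⟩
    exact (h4.symm.trans (h3.trans h2)).trans (phiS_par hm α (opp_ne_zero hw c) h4)
  -- all points
  have h2 : ∀ y : V, y ≠ 0 → Par y (phiS α y) := by
    intro y hy
    by_cases hye : B y e0 = 0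
    swap
    · exact h1 y hye
    by_cases hpar : Par (e0 : V) y
    · exact (hpar.symm.trans hpe).trans (phiS_par hm α e0_ne_zero hpar)
    obtain ⟨z₀, hz1, hz2⟩ := sympForm_separate y e0 hy (by
      intro c hc
      apply hpar
      have hc0 : c ≠ 0 := by
        rintro rfl
        rw [zero_smul] at hc
        exact e0_ne_zero hc
      exact Par.symm ⟨c, hc0, hc⟩)
    have hz2' : B z₀ e0 ≠ 0 := by
      rw [sympForm_swap]
      exact neg_ne_zero.mpr hz2
    have hcase : ∀ z : V, B z e0 ≠ 0 → B y z = 0 → B (phiS α y) z = 0 := by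
      intro z hz hyz
      have hz0 : z ≠ 0 := by
        rintro rfl
        exact hz (sympForm_zero_left m _)
      rw [← (h1 z hz).perp_iff', phiS_perp hm α hy hz0]
      exact hyz
    apply par_of_perp_imp hy (phiS_ne_zero α hy)
    intro z hyz
    by_cases hz : B z e0 = 0
    · have h3 := hcase (z + z₀) (by rw [sympForm_add_left, hz, zero_add]; exact hz2')
        (by rw [sympForm_add_right, hyz, hz1, add_zero])
      have h4 := hcase z₀ hz2' hz1
      rw [sympForm_add_right, h4, add_zero] at h3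
      exact h3
    · exact hcase z hz hyz
  ext x
  obtain ⟨s, rfl⟩ := pm_surjective x
  obtain ⟨s', hs'⟩ := pm_surjective (α.1 (pm s))
  rw [MulAut.one_apply, ← hs']
  apply (pm_eq_of_par (by omega) s s' _).symm
  intro y hy
  have h3 := phiS_equiv hm α s s' hs'.symm hy
  have h4 := (h2 y hy).mulVec s'.1
  have h5 := h2 (s.1 *ᵥ y) (mulVec_ne_zero s hy)
  exact h5.trans (h4.trans h3).symm

include hm in
/-- The structure theorem for normalised automorphisms. -/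
theorem aut_normalizedS [Finite F] (α : ↥(rootStab m F)) (hE : α.1 '' Rt (e0 : V) = Rt e0)
    (hF : α.1 '' Rt (f0 : V) = Rt f0) :
    ∃ (g : ↥(Cfsg.GSp m F)) (τ : RingAut F), α.1 = cg g * fg τ := by
  obtain ⟨A, τ, μ₀, P⟩ := exists_paraS hm α hE hF
  obtain ⟨g, he, hf, hw, hmu⟩ := exists_gsp P
  refine ⟨g, τ, ?_⟩
  have hmem : (cg g * fg (τ : RingAut F))⁻¹ * α.1 ∈ rootStab m F :=
    (rootStab m F).mul_mem ((rootStab m F).inv_mem ((rootStab m F).mul_mem (cg_mem_rootStab g)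
      (fg_mem_rootStab _))) α.2
  have h1 : (cg g * fg (τ : RingAut F))⁻¹ * α.1 = 1 := by
    apply eq_one_of_fixS hm ⟨_, hmem⟩
    · intro w c hw'
      show ((cg g * fg (τ : RingAut F))⁻¹ * α.1 : MulAut PSpm) (pm (Em w c)) = pm (Em w c)
      rw [MulAut.mul_apply, P.em w c hw', ← gamma_Em P g he hw hmu hw' c, MulAut.inv_apply_self]
    · show ((cg g * fg (τ : RingAut F))⁻¹ * α.1 : MulAut PSpm) '' Rt (f0 : V) = Rt f0
      have h2 := gamma_Rt_f0 g (τ : RingAut F) hf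
      apply Set.Subset.antisymm
      · rintro _ ⟨x, hx, rfl⟩
        have h3 : α.1 x ∈ Rt (f0 : V) := by
          rw [← hF]
          exact ⟨x, hx, rfl⟩
        rw [← h2] at h3
        obtain ⟨y, hy, e⟩ := h3
        rw [MulAut.mul_apply, ← e, MulAut.inv_apply_self]
        exact hy
      · intro y hy
        have h3 : (cg g * fg (τ : RingAut F) : MulAut PSpm) y ∈ Rt (f0 : V) := by
          rw [← h2]
          exact ⟨y, hy, rfl⟩
        rw [← hF] at h3
        obtain ⟨x, hx, e⟩ := h3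
        exact ⟨x, hx, by rw [MulAut.mul_apply, e, MulAut.inv_apply_self]⟩
  exact (inv_mul_eq_one.mp h1).symm

include hm in
/-- **Structure theorem**: every automorphism of `PSp_{2m}(F)` permuting the root subgroups is
induced by a semilinear conformal symplectic map. -/
theorem aut_structureS [Finite F] (α : MulAut PSpm) (hα : α ∈ rootStab m F) :
    ∃ (g : ↥(Cfsg.GSp m F)) (τ : RingAut F), α = cg g * fg τ := by
  obtain ⟨α', rfl⟩ : ∃ α' : ↥(rootStab m F), α'.1 = α := ⟨⟨α, hα⟩, rfl⟩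
  have hne : B (phiS α' (f0 : V)) (phiS α' (e0 : V)) ≠ 0 := by
    rw [Ne, phiS_perp hm α' f0_ne_zero e0_ne_zero, B_f0_e0]
    exact one_ne_zero
  obtain ⟨s, hs1, hs2⟩ := Cfsg.Agent.Lib.Helper40.exists_symplectic_pair m (f0 : V) e0
    ((B (phiS α' (f0 : V)) (phiS α' (e0 : V)))⁻¹ • phiS α' (f0 : V)) (phiS α' (e0 : V)) B_f0_e0
    (by rw [sympForm_smul_left, inv_mul_cancel₀ hne])
  have hconj : ∀ u : V, ((MulAut.conj (pm s))⁻¹ * α'.1 : MulAut PSpm) '' Rt u =
      Rt ((s⁻¹).1 *ᵥ phiS α' u) ∨ u = 0 := by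
    intro u
    by_cases hu : u = 0
    · exact Or.inr hu
    left
    rw [← conj_Rt, ← phiS_Rt α' hu, Set.image_image]
    apply Set.image_congr
    intro z _
    rw [MulAut.mul_apply, MulAut.conj_inv_apply, map_inv, inv_inv]
  have hE : ((MulAut.conj (pm s))⁻¹ * α'.1 : MulAut PSpm) '' Rt (e0 : V) = Rt e0 := by
    rw [(hconj e0).resolve_right e0_ne_zero, ← hs2, inv_mulVec]
  have hF : ((MulAut.conj (pm s))⁻¹ * α'.1 : MulAut PSpm) '' Rt (f0 : V) = Rt f0 := by
    rw [(hconj f0).resolve_right f0_ne_zero]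
    have h1 : phiS α' (f0 : V) = B (phiS α' (f0 : V)) (phiS α' (e0 : V)) •
        (s.1 *ᵥ (f0 : V)) := by
      show _ = _ • (s.1.mulVec f0)
      rw [hs1, smul_smul, mul_inv_cancel₀ hne, one_smul]
    rw [h1, Matrix.mulVec_smul, inv_mulVec, Rt_smul hne]
  have hmem : (MulAut.conj (pm s))⁻¹ * α'.1 ∈ rootStab m F :=
    (rootStab m F).mul_mem ((rootStab m F).inv_mem (conj_mem_rootStab s)) α'.2
  obtain ⟨g, τ, e⟩ := aut_normalizedS hm ⟨_, hmem⟩ hE hF
  refine ⟨toGSp s * g, τ, ?_⟩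
  have e' : (MulAut.conj (pm s))⁻¹ * α'.1 = cg g * fg τ := e
  rw [map_mul, cg_toGSp, mul_assoc, ← e', mul_inv_cancel_left]

end para

end Cfsg.Agent.Lib.Helper43.AutSp4
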