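import Mathlib
import Cfsg.Agent.Lib.Helper43.AutSp4.Rel
import Cfsg.Agent.Lib.Helper43.AutPSp.SylowTwo

set_option autoImplicit false

/-!
# Automorphisms of `PSp` in characteristic two and the class of transvections

In characteristic two the automorphisms preserving the class of transvections are induced by
semilinear maps, and they form a subgroup of index at most two in the automorphism group.
-/

namespace Cfsg.Agent.Lib.Helper43.AutSp4

open Matrix Cfsg.Agent.Lib.Helper13 Cfsg.Agent.Lib.Helper43.AutPSp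

variable {m : ℕ} {F : Type*} [Field F]

local notation "V" => Fin m ⊕ Fin m → F
local notation "Mx" => Matrix (Fin m ⊕ Fin m) (Fin m ⊕ Fin m) F
set_option quotPrecheck false in
local notation "Sp" => ↥(Matrix.symplecticGroup (Fin m) F)
local notation "PSpm" => Cfsg.PSp m F
local notation "B" => Cfsg.sympForm m F
local notation "GLm" => GL (Fin m ⊕ Fin m) F

theorem six_comm {G : Type*} [Group G] {a b d a' b' d' : G} (h1 : Commute b a')
    (h2 : Commute d a') (h3 : Commute d' a') (h4 : Commute b' a') (h5 : Commute d b')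
    (h6 : Commute d' b') : a * b * d * (d' * b' * a') = (a * a') * (b * b') * (d * d') := by
  simp only [mul_assoc]
  rw [h4.eq, h3.left_comm, h2.left_comm, h1.left_comm, h6.eq, h5.left_comm]

/-! ### The class of transvections -/

theorem conj_mem_TvSet (k : PSpm) {x : PSpm} (hx : x ∈ TvSet m F) : k * x * k⁻¹ ∈ TvSet m F := by
  obtain ⟨u, c, hu, hc, rfl⟩ := hx
  obtain ⟨g, rfl⟩ := pm_surjective k
  refine ⟨g.1 *ᵥ u, c, mulVec_ne_zero g hu, hc, ?_⟩
  rw [← map_inv, ← map_mul, ← map_mul, conj_tvS]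

/-- In characteristic two (finite field) the transvections form a single conjugacy class. -/
theorem tv_conj [Finite F] (h2 : (2 : F) = 0) {x y : PSpm} (hx : x ∈ TvSet m F)
    (hy : y ∈ TvSet m F) : ∃ k : PSpm, y = k * x * k⁻¹ := by
  obtain ⟨u, c, hu, hc, rfl⟩ := hx
  obtain ⟨v, d, hv, hd, rfl⟩ := hy
  have hchar : ringChar F = 2 :=
    CharP.ringChar_of_prime_eq_zero Nat.prime_two (by exact_mod_cast h2)
  obtain ⟨a, ha⟩ := FiniteField.isSquare_of_char_two hchar c
  obtain ⟨b, hb⟩ := FiniteField.isSquare_of_char_two hchar d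
  have ha0 : a ≠ 0 := by
    rintro rfl
    rw [mul_zero] at ha
    exact hc ha
  have hb0 : b ≠ 0 := by
    rintro rfl
    rw [mul_zero] at hb
    exact hd hb
  obtain ⟨g, hg⟩ := Cfsg.Agent.Lib.Helper40.exists_symplectic_vec m (a • u) (b • v)
    (smul_ne_zero ha0 hu) (smul_ne_zero hb0 hv)
  refine ⟨pm g, ?_⟩
  rw [← map_inv, ← map_mul, ← map_mul, conj_tvS]
  congr 1
  have e1 : tvS u c = tvS (a • u) 1 := by rw [tvS_smul, mul_one, ha]
  have e2 : tvS v d = tvS (b • v) 1 := by rw [tvS_smul, mul_one, hb]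
  have hg' : g.1 *ᵥ (a • u) = b • v := hg
  rw [e2, ← hg', ← conj_tvS, ← e1, conj_tvS]

section two

variable [NeZero m] (h2 : (2 : F) = 0)

include h2 in
/-- The mixed central involutions are not odd transpositions. -/
theorem Em_mixed_not_oddT (hm : 2 ≤ m) {w : V} (hw : InW w) (hw0 : w ≠ 0) {c : F}
    (hc : c ≠ 0) :
    ∃ y : PSpm, IsConj (pm (Em w c)) y ∧ (pm (Em w c) * y) ^ 4 = 1 ∧
      (pm (Em w c) * y) ^ 2 ≠ 1 := by
  obtain ⟨w', hw', hww'⟩ := exists_inW_pair hw hw0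
  have hx : LinearIndependent F ![(e0 : V), w] := by
    rw [LinearIndependent.pair_iff' e0_ne_zero]
    intro a ha
    have := congrArg (fun v : V => B f0 v) ha
    simp only [sympForm_smul_right, B_f0_e0, hw.f0_left, mul_one] at this
    rw [this, zero_smul] at ha
    exact hw0 ha.symm
  have hy : LinearIndependent F ![w, (f0 : V)] := by
    rw [LinearIndependent.pair_iff' hw0]
    intro a ha
    have := congrArg (fun v : V => B v e0) ha
    simp only [sympForm_smul_left, hw.1, mul_zero, B_f0_e0] at this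
    exact zero_ne_one this
  obtain ⟨g, hg⟩ := witt_gram_tuples ![(e0 : V), w] ![w, f0] hx hy (by
    intro i j
    fin_cases i <;> fin_cases j <;>
      simp [sympForm_self, hw.e0_left, hw.1, hw.2, hw.f0_left])
  have hg0 : g.1 *ᵥ (e0 : V) = w := hg 0
  have hg1 : g.1 *ᵥ w = f0 := hg 1
  obtain ⟨Y, hYdef⟩ : ∃ Y : Sp, Y = g * Em w c * g⁻¹ := ⟨_, rfl⟩
  have hxx : Em w c * Em w c = 1 := by
    rw [Em_mul hw hw, sympForm_self, add_self_vec h2, add_self_two h2, add_zero, Em_zero_zero]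
  have hYY : Y * Y = 1 := by
    rw [hYdef]
    calc g * Em w c * g⁻¹ * (g * Em w c * g⁻¹) = g * (Em w c * Em w c) * g⁻¹ := by group
      _ = 1 := by rw [hxx]; group
  have hYv : ∀ v : V, Y.1 *ᵥ v = v + B v w • f0 + B v f0 • w + (c * B v w) • w := by
    intro v
    rw [hYdef, mulVec_mul, mulVec_mul, Em_mulVec hw, B_sp_inv, B_sp_inv, hg0, hg1]
    simp only [Matrix.mulVec_add, Matrix.mulVec_smul, mulVec_inv, hg0, hg1]
  have hneg : (-1 : F) = 1 := by linear_combination (-1 : F) * h2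
  have hYe : Y.1 *ᵥ (e0 : V) = e0 + w := by
    rw [hYv, hw.e0_left, B_e0_f0, hneg]
    module
  have hYw : Y.1 *ᵥ w = w := by
    rw [hYv, sympForm_self, hw.2]
    module
  have hYew : Y.1 *ᵥ ((e0 : V) + w) = e0 := by
    rw [Matrix.mulVec_add, hYe, hYw, add_assoc, add_self_vec h2, add_zero]
  have hconj : Y * Em w c * Y⁻¹ = tvS e0 1 * tvS w (-1) * tvS (e0 + w) (c - 1) := by
    unfold Em
    have : Y * (tvS (e0 + w) 1 * tvS w (-1) * tvS e0 (c - 1)) * Y⁻¹ =
        (Y * tvS (e0 + w) 1 * Y⁻¹) * (Y * tvS w (-1) * Y⁻¹) * (Y * tvS e0 (c - 1) * Y⁻¹) := by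
      group
    rw [this, conj_tvS, conj_tvS, conj_tvS, hYew, hYw, hYe]
  have hYinv : Y⁻¹ = Y := inv_eq_of_mul_eq_one_left hYY
  have hpw : B ((e0 : V) + w) w = 0 := by
    rw [sympForm_add_left, sympForm_self, hw.e0_left, add_zero]
  have hpe : B ((e0 : V) + w) e0 = 0 := by
    rw [sympForm_add_left, sympForm_self, hw.1, add_zero]
  have hsq : (Em w c * Y) * (Em w c * Y) = tvS (e0 + w) c * tvS e0 c := by
    have e : (Em w c * Y) * (Em w c * Y) = Em w c * (Y * Em w c * Y⁻¹) := by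
      rw [hYinv]
      group
    rw [e, hconj]
    unfold Em
    rw [six_comm (tvS_comm (B_swap_zero hpw) _ _) (tvS_comm (B_swap_zero hpe) _ _)
      (tvS_comm (B_swap_zero hpe) _ _) (tvS_comm (B_swap_zero hpw) _ _)
      (tvS_comm (B_swap_zero hw.1) _ _) (tvS_comm (B_swap_zero hw.1) _ _)]
    rw [tvS_mul, tvS_mul, tvS_mul]
    have e1 : (1 : F) + (c - 1) = c := by ring
    have e2 : (-1 : F) + -1 = 0 := by linear_combination (-1 : F) * h2
    have e3 : c - 1 + 1 = c := by ring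
    rw [e1, e2, e3, tvS_zero, mul_one]
  have hcomm : tvS (e0 : V) c * tvS (e0 + w) c = tvS (e0 + w) c * tvS e0 c :=
    tvS_comm (B_swap_zero hpe) c c
  refine ⟨pm Y, ?_, ?_, ?_⟩
  · rw [isConj_iff]
    exact ⟨pm g, by rw [hYdef, map_mul, map_mul, map_inv]⟩
  · rw [← map_mul, ← map_pow]
    have : (Em w c * Y) ^ 4 = 1 := by
      have e4 : (Em w c * Y) ^ 4 =
          ((Em w c * Y) * (Em w c * Y)) * ((Em w c * Y) * (Em w c * Y)) := by
        rw [show (4 : ℕ) = 2 + 2 from rfl, pow_add, pow_two]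
      rw [e4, hsq]
      calc tvS (e0 + w) c * tvS e0 c * (tvS (e0 + w) c * tvS e0 c)
          = tvS (e0 + w) c * (tvS e0 c * tvS (e0 + w) c) * tvS e0 c := by group
        _ = (tvS (e0 + w) c * tvS (e0 + w) c) * (tvS e0 c * tvS e0 c) := by
            rw [hcomm]
            group
        _ = 1 := by rw [tvS_mul, tvS_mul, add_self_two h2, tvS_zero, tvS_zero, mul_one]
    rw [this, map_one]
  · rw [← map_mul, ← map_pow, pow_two, hsq]
    intro h
    have h1 : tvS ((e0 : V) + w) c * tvS e0 c = 1 :=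
      pm_inj_two h2 (by omega) (h.trans (map_one pm).symm)
    have h3 := congrArg (fun M : Sp => M.1 *ᵥ w') h1
    simp only [mulVec_mul, tvS_mulVec, AutPSp.mulVec_one] at h3
    have hw'w : B w' w = -1 := by rw [sympForm_swap, hww']
    rw [hw'.1, mul_zero, zero_smul, add_zero, sympForm_add_right, hw'.1, hw'w, zero_add] at h3
    have h4 : (c * -1) • ((e0 : V) + w) = 0 := by
      have := sub_eq_zero.mpr h3
      rw [← this]
      module
    rcases smul_eq_zero.mp h4 with h5 | h5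
    · apply hc
      linear_combination -h5
    · have h6 := congrArg (fun v : V => B f0 v) h5
      simp only [sympForm_add_right, B_f0_e0, hw.f0_left, sympForm_zero_right, add_zero] at h6
      exact one_ne_zero h6

variable [Finite F]

include h2 in
/-- Transvections satisfy the group-theoretic characterisation. -/
theorem tv_isTvChar (hm : 2 ≤ m) {x : PSpm} (hx : x ∈ TvSet m F) : IsTvChar x := by
  haveI : Fact (Nat.Prime 2) := ⟨Nat.prime_two⟩
  haveI : CharP F 2 := CharTwo.of_one_ne_zero_of_two_eq_zero one_ne_zero h2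
  obtain ⟨P₀, hP₀⟩ := (isPGroup_Qe (m := m) (F := F) 2).exists_le_sylow
  obtain ⟨hZ1, hZ2⟩ := ZS_sylow_two h2 hm P₀ hP₀
  obtain ⟨u, c, hu, hc, rfl⟩ := hx
  refine ⟨pm_tvS_ne_one hm hu hc, ?_, ?_⟩
  · obtain ⟨g, hg⟩ := Cfsg.Agent.Lib.Helper40.exists_symplectic_vec m (e0 : V) u e0_ne_zero hu
    refine ⟨pm g • P₀, ?_⟩
    rw [ZS_smul]
    refine ⟨pm (tvS e0 c), hZ1 ⟨c, rfl⟩, ?_⟩
    show pm g * pm (tvS e0 c) * (pm g)⁻¹ = _
    rw [← map_inv, ← map_mul, ← map_mul, conj_tvS]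
    exact congrArg (fun v => pm (tvS v c)) hg
  · intro y hy hy4
    obtain ⟨k, hk⟩ := isConj_iff.mp hy
    obtain ⟨g, rfl⟩ := pm_surjective k
    have e : y = pm (tvS (g.1 *ᵥ u) c) := by
      rw [← hk, ← map_inv, ← map_mul, ← map_mul, conj_tvS]
    rw [e] at hy4 ⊢
    exact tv_oddT h2 (by omega) u _ c hy4

include h2 in
/-- An element satisfying the characterisation is a transvection or a short root element. -/
theorem isTvChar_cases (hm : 2 ≤ m) {x : PSpm} (hx : IsTvChar x) :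
    x ∈ TvSet m F ∨ ∃ (k : PSpm) (w : V), InW w ∧ w ≠ 0 ∧ x = k * pm (Em w 0) * k⁻¹ := by
  haveI : Fact (Nat.Prime 2) := ⟨Nat.prime_two⟩
  haveI : CharP F 2 := CharTwo.of_one_ne_zero_of_two_eq_zero one_ne_zero h2
  obtain ⟨P₀, hP₀⟩ := (isPGroup_Qe (m := m) (F := F) 2).exists_le_sylow
  obtain ⟨hZ1, hZ2⟩ := ZS_sylow_two h2 hm P₀ hP₀
  obtain ⟨h1, ⟨P, hP⟩, h3⟩ := hx
  obtain ⟨k, hk⟩ := MulAction.exists_smul_eq PSpm P₀ P
  obtain ⟨g, rfl⟩ := pm_surjective k
  rw [← hk, ZS_smul] at hP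
  obtain ⟨z, hz, rfl⟩ := hP
  obtain ⟨w, c, hw, rfl⟩ := hZ2 z hz
  by_cases hw0 : w = 0
  · left
    subst hw0
    have hc : c ≠ 0 := by
      rintro rfl
      apply h1
      show pm g * pm (Em 0 0) * (pm g)⁻¹ = 1
      rw [Em_zero_zero, map_one, mul_one, mul_inv_cancel]
    refine ⟨g.1 *ᵥ e0, c, mulVec_ne_zero g e0_ne_zero, hc, ?_⟩
    show pm g * pm (Em 0 c) * (pm g)⁻¹ = _
    rw [Em_zero, ← map_inv, ← map_mul, ← map_mul, conj_tvS]
  · by_cases hc : c = 0
    · right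
      subst hc
      exact ⟨pm g, w, hw, hw0, rfl⟩
    · exfalso
      obtain ⟨y', hy', hy4, hy2⟩ := Em_mixed_not_oddT h2 hm hw hw0 hc
      have hconj : IsConj (pm g * pm (Em w c) * (pm g)⁻¹) (pm g * y' * (pm g)⁻¹) := by
        obtain ⟨k, hk⟩ := isConj_iff.mp hy'
        rw [isConj_iff]
        refine ⟨pm g * k * (pm g)⁻¹, ?_⟩
        rw [← hk]
        group
      have e : pm g * pm (Em w c) * (pm g)⁻¹ * (pm g * y' * (pm g)⁻¹) =
          pm g * (pm (Em w c) * y') * (pm g)⁻¹ := by group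
      have h5 := h3 _ hconj (by rw [e, conj_pow, hy4]; group)
      rw [e, conj_pow] at h5
      apply hy2
      have h6 : (pm (Em w c) * y') ^ 2 = (pm g)⁻¹ * (pm g * (pm (Em w c) * y') ^ 2 * (pm g)⁻¹) *
          pm g := by group
      rw [h6, h5]
      group

omit [Finite F] in
/-- The short root elements form a single class. -/
theorem sh_conj (hm : 2 ≤ m) {w w' : V} (hw : InW w) (hw0 : w ≠ 0) (hw' : InW w')
    (hw'0 : w' ≠ 0) : ∃ n : Sp, n * Em w 0 * n⁻¹ = Em w' 0 := by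
  have hli : ∀ w : V, InW w → w ≠ 0 → LinearIndependent F ![(e0 : V), w] := by
    intro w hw hw0
    rw [LinearIndependent.pair_iff' e0_ne_zero]
    intro a ha
    have := congrArg (fun v : V => B f0 v) ha
    simp only [sympForm_smul_right, B_f0_e0, hw.f0_left, mul_one] at this
    rw [this, zero_smul] at ha
    exact hw0 ha.symm
  obtain ⟨n, hn⟩ := witt_gram_tuples ![(e0 : V), w] ![(e0 : V), w'] (hli w hw hw0)
    (hli w' hw' hw'0) (by
    intro i j
    fin_cases i <;> fin_cases j <;>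
      simp [sympForm_self, hw.e0_left, hw.1, hw'.e0_left, hw'.1])
  have hn0 : n.1 *ᵥ (e0 : V) = e0 := hn 0
  have hn1 : n.1 *ᵥ w = w' := hn 1
  refine ⟨n, ?_⟩
  unfold Em
  have : n * (tvS (e0 + w) 1 * tvS w (-1) * tvS e0 (0 - 1)) * n⁻¹ =
      (n * tvS (e0 + w) 1 * n⁻¹) * (n * tvS w (-1) * n⁻¹) * (n * tvS e0 (0 - 1) * n⁻¹) := by
    group
  rw [this, conj_tvS, conj_tvS, conj_tvS, Matrix.mulVec_add, hn0, hn1]

end two

/-! ### The stabiliser of the class of transvections -/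

/-- The automorphisms preserving the class of transvections. -/
def tvStab (m : ℕ) (F : Type*) [Field F] : Subgroup (MulAut (Cfsg.PSp m F)) where
  carrier := {α | ∀ x, α x ∈ TvSet m F ↔ x ∈ TvSet m F}
  mul_mem' := fun {a b} ha hb x => by
    rw [MulAut.mul_apply, ha, hb]
  one_mem' := fun x => by rw [MulAut.one_apply]
  inv_mem' := fun {a} ha x => by
    rw [← ha (a⁻¹ x), MulAut.apply_inv_self]

theorem mem_tvStab {α : MulAut PSpm} :
    α ∈ tvStab m F ↔ ∀ x, α x ∈ TvSet m F ↔ x ∈ TvSet m F := Iff.rfl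

theorem mem_tvStab_of_maps [Finite F] (α : MulAut PSpm)
    (h : ∀ x ∈ TvSet m F, α x ∈ TvSet m F) : α ∈ tvStab m F := by
  intro x
  refine ⟨fun hx => ?_, h x⟩
  let f : ↥(TvSet m F) → ↥(TvSet m F) := fun y => ⟨α y.1, h y.1 y.2⟩
  have hinj : Function.Injective f := by
    intro a b hab
    exact Subtype.ext (α.injective (congrArg Subtype.val hab))
  obtain ⟨y, hy⟩ := Finite.surjective_of_injective hinj ⟨α x, hx⟩
  have h1 : α y.1 = α x := congrArg Subtype.val hy
  rw [← α.injective h1]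
  exact y.2

theorem mem_tvStab_of_t0 [NeZero m] [Finite F] (h2 : (2 : F) = 0) (α : MulAut PSpm)
    (h : α (pm (tvS (e0 : V) 1)) ∈ TvSet m F) : α ∈ tvStab m F := by
  apply mem_tvStab_of_maps
  intro x hx
  obtain ⟨k, rfl⟩ := tv_conj h2 ⟨e0, 1, e0_ne_zero, one_ne_zero, rfl⟩ hx
  rw [map_mul, map_mul, map_inv]
  exact conj_mem_TvSet _ h

/-- Any two automorphisms outside the stabiliser differ by an element of the stabiliser. -/
theorem tvStab_dichotomy [NeZero m] [Finite F] (h2 : (2 : F) = 0) (hm : 2 ≤ m)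
    (α β : MulAut PSpm) (hα : α ∉ tvStab m F) (hβ : β ∉ tvStab m F) :
    β⁻¹ * α ∈ tvStab m F := by
  have ht0 : pm (tvS (e0 : V) 1) ∈ TvSet m F := ⟨e0, 1, e0_ne_zero, one_ne_zero, rfl⟩
  have hα' : α (pm (tvS (e0 : V) 1)) ∉ TvSet m F := fun h => hα (mem_tvStab_of_t0 h2 α h)
  have hβ' : β (pm (tvS (e0 : V) 1)) ∉ TvSet m F := fun h => hβ (mem_tvStab_of_t0 h2 β h)
  obtain ⟨k, w, hw, hw0, e⟩ := (isTvChar_cases h2 hm
    (isTvChar_map α (tv_isTvChar h2 hm ht0))).resolve_left hα'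
  obtain ⟨k', w', hw', hw'0, e'⟩ := (isTvChar_cases h2 hm
    (isTvChar_map β (tv_isTvChar h2 hm ht0))).resolve_left hβ'
  obtain ⟨n, hn⟩ := sh_conj hm hw hw0 hw' hw'0
  apply mem_tvStab_of_t0 h2
  have e1 : β (pm (tvS (e0 : V) 1)) =
      (k' * pm n * k⁻¹) * α (pm (tvS (e0 : V) 1)) * (k' * pm n * k⁻¹)⁻¹ := by
    rw [e, e', ← hn, map_mul, map_mul, map_inv]
    group
  have e2 : (β⁻¹ * α) (pm (tvS (e0 : V) 1)) =
      β⁻¹ (k' * pm n * k⁻¹)⁻¹ * pm (tvS (e0 : V) 1) * (β⁻¹ (k' * pm n * k⁻¹)⁻¹)⁻¹ := by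
    have e3 : α (pm (tvS (e0 : V) 1)) =
        (k' * pm n * k⁻¹)⁻¹ * β (pm (tvS (e0 : V) 1)) * (k' * pm n * k⁻¹) := by
      rw [e1]
      group
    rw [MulAut.mul_apply, e3, map_mul, map_mul, MulAut.inv_apply_self, map_inv, inv_inv]
  rw [e2]
  exact conj_mem_TvSet _ ht0

/-! ### The stabiliser permutes the root subgroups -/

theorem RC_map_subsetS {α : MulAut PSpm} (hα : α ∈ tvStab m F) (t : PSpm) {s : PSpm}
    (hs : s ∈ RC t) : α s ∈ RC (α t) := by
  rcases hs with rfl | ⟨hs, hc⟩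
  · left
    exact map_one α
  · right
    refine ⟨(hα s).mpr hs, fun t'' ht'' h => ?_⟩
    have h1 : α⁻¹ t'' * t = t * α⁻¹ t'' := by
      have := congrArg (fun z => (α⁻¹ : MulAut PSpm) z) h
      simp only [map_mul, MulAut.inv_apply_self] at this
      exact this
    have h2 := hc _ (((tvStab m F).inv_mem hα _).mpr ht'') h1
    have := congrArg (fun z => α z) h2
    simp only [map_mul, MulAut.apply_inv_self] at this
    exact this

theorem RC_mapS {α : MulAut PSpm} (hα : α ∈ tvStab m F) (t : PSpm) : α '' RC t = RC (α t) := by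
  apply Set.Subset.antisymm
  · rintro _ ⟨s, hs, rfl⟩
    exact RC_map_subsetS hα t hs
  · intro y hy
    refine ⟨α⁻¹ y, ?_, MulAut.apply_inv_self _ α y⟩
    have := RC_map_subsetS ((tvStab m F).inv_mem hα) (α t) hy
    rwa [MulAut.inv_apply_self] at this

theorem tvStab_le_rootStab (hm : 2 ≤ m) : tvStab m F ≤ rootStab m F := by
  have key : ∀ α : MulAut PSpm, α ∈ tvStab m F → RootFwd α := by
    intro α hα u hu
    obtain ⟨u', c', hu', hc', e⟩ := (hα (pm (tvS u 1))).mpr ⟨u, 1, hu, one_ne_zero, rfl⟩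
    refine ⟨u', hu', ?_⟩
    rw [← RC_eq hm hu one_ne_zero, RC_mapS hα, e, RC_eq hm hu' hc']
  intro α hα
  exact ⟨key α hα, key α⁻¹ ((tvStab m F).inv_mem hα)⟩

theorem cg_mem_tvStab [NeZero m] [Finite F] (g : ↥(Cfsg.GSp m F)) :
    (cg g : MulAut PSpm) ∈ tvStab m F := by
  apply mem_tvStab_of_maps
  rintro _ ⟨u, c, hu, hc, rfl⟩
  refine ⟨((g : GLm) : Mx) *ᵥ u, c / mult (g : GLm), ?_, div_ne_zero hc (mult_ne_zero g.2), ?_⟩
  · intro h0
    have := gl_inv_mulVec (g : GLm) u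
    rw [h0, Matrix.mulVec_zero] at this
    exact hu this.symm
  · rw [cg_pm, gAutS_tvS]

theorem fg_mem_tvStab [Finite F] (τ : RingAut F) : (fg τ : MulAut PSpm) ∈ tvStab m F := by
  apply mem_tvStab_of_maps
  rintro _ ⟨u, c, hu, hc, rfl⟩
  refine ⟨tw τ u, τ c, tw_ne_zero τ hu, ?_, ?_⟩
  · intro h0
    apply hc
    have : τ c = τ 0 := by rw [h0, map_zero]
    exact τ.injective this
  · rw [fg_pm, fAutS_tvS]

/-- The automorphisms preserving the class of transvections are induced by semilinear maps. -/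
theorem tvStab_structure [NeZero m] [Finite F] (hm : 2 ≤ m) (α : MulAut PSpm)
    (hα : α ∈ tvStab m F) : ∃ (g : ↥(Cfsg.GSp m F)) (τ : RingAut F), α = cg g * fg τ :=
  aut_structureS hm α (tvStab_le_rootStab hm hα)

end Cfsg.Agent.Lib.Helper43.AutSp4
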