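import Mathlib
import Cfsg.Prelude.Def_ClassicalGeometry

set_option autoImplicit false

/-!
# The exterior square map on `Sp_4` in characteristic two

For a `4 × 4` matrix `g` we form the matrix `psiM g` of those `2 × 2` minors of `g` whose rows and
columns are indexed by four of the six pairs.  In characteristic two this is multiplicative on
the symplectic group.
-/

namespace Cfsg.Agent.Lib.Helper43.AutSp4

open Matrix

variable {F : Type*} [CommRing F]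

local notation "I4" => Fin 2 ⊕ Fin 2
local notation "M4" => Matrix (Fin 2 ⊕ Fin 2) (Fin 2 ⊕ Fin 2) F

/-- A `2 × 2` minor. -/
def mn (g : Matrix (Fin 2 ⊕ Fin 2) (Fin 2 ⊕ Fin 2) F) (k1 k2 l1 l2 : Fin 2 ⊕ Fin 2) : F :=
  g k1 l1 * g k2 l2 - g k1 l2 * g k2 l1

/-- First members of the four pairs. -/
def prL : Fin 2 ⊕ Fin 2 → Fin 2 ⊕ Fin 2 :=
  Sum.elim ![Sum.inl 0, Sum.inl 0] ![Sum.inr 0, Sum.inl 1]

/-- Second members of the four pairs. -/
def prR : Fin 2 ⊕ Fin 2 → Fin 2 ⊕ Fin 2 :=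
  Sum.elim ![Sum.inl 1, Sum.inr 1] ![Sum.inr 1, Sum.inr 0]

/-- The matrix of minors. -/
def psiM (g : Matrix (Fin 2 ⊕ Fin 2) (Fin 2 ⊕ Fin 2) F) : Matrix (Fin 2 ⊕ Fin 2) (Fin 2 ⊕ Fin 2) F :=
  Matrix.of fun i j => mn g (prL i) (prR i) (prL j) (prR j)

theorem psiM_apply (g : M4) (i j : I4) : psiM g i j = mn g (prL i) (prR i) (prL j) (prR j) := rfl

/-- Cauchy–Binet for `2 × 2` minors of `4 × 4` matrices. -/
theorem mn_mul (g h : M4) (k1 k2 l1 l2 : I4) :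
    mn (g * h) k1 k2 l1 l2 =
      mn g k1 k2 (Sum.inl 0) (Sum.inl 1) * mn h (Sum.inl 0) (Sum.inl 1) l1 l2 +
      mn g k1 k2 (Sum.inl 0) (Sum.inr 1) * mn h (Sum.inl 0) (Sum.inr 1) l1 l2 +
      mn g k1 k2 (Sum.inr 0) (Sum.inr 1) * mn h (Sum.inr 0) (Sum.inr 1) l1 l2 +
      mn g k1 k2 (Sum.inl 1) (Sum.inr 0) * mn h (Sum.inl 1) (Sum.inr 0) l1 l2 +
      mn g k1 k2 (Sum.inl 0) (Sum.inr 0) * mn h (Sum.inl 0) (Sum.inr 0) l1 l2 +
      mn g k1 k2 (Sum.inl 1) (Sum.inr 1) * mn h (Sum.inl 1) (Sum.inr 1) l1 l2 := by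
  simp only [mn, Matrix.mul_apply, Fintype.sum_sum_type, Fin.sum_univ_two]
  ring

theorem mn_row {g : M4} (hg : g ∈ Matrix.symplecticGroup (Fin 2) F) (k1 k2 : I4) :
    mn g k1 k2 (Sum.inl 0) (Sum.inr 0) + mn g k1 k2 (Sum.inl 1) (Sum.inr 1) =
      - Matrix.J (Fin 2) F k1 k2 := by
  have h := congrFun (congrFun ((SymplecticGroup.mem_iff).mp hg) k1) k2
  rw [← h]
  simp [mn, Matrix.mul_apply, Fintype.sum_sum_type, Fin.sum_univ_two, Matrix.J, Matrix.one_apply]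
  ring

theorem mn_col {g : M4} (hg : g ∈ Matrix.symplecticGroup (Fin 2) F) (l1 l2 : I4) :
    mn g (Sum.inl 0) (Sum.inr 0) l1 l2 + mn g (Sum.inl 1) (Sum.inr 1) l1 l2 =
      - Matrix.J (Fin 2) F l1 l2 := by
  have h := congrFun (congrFun ((SymplecticGroup.mem_iff').mp hg) l1) l2
  rw [← h]
  simp [mn, Matrix.mul_apply, Fintype.sum_sum_type, Fin.sum_univ_two, Matrix.J, Matrix.one_apply]
  ring

theorem J_pr (i : I4) : Matrix.J (Fin 2) F (prL i) (prR i) = 0 := by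
  rcases i with i | i <;> fin_cases i <;> simp [prL, prR, Matrix.J]

/-- In characteristic two the matrix of minors is multiplicative on the symplectic group. -/
theorem psiM_mul (h2 : (2 : F) = 0) {g h : M4} (hg : g ∈ Matrix.symplecticGroup (Fin 2) F)
    (hh : h ∈ Matrix.symplecticGroup (Fin 2) F) : psiM (g * h) = psiM g * psiM h := by
  ext i j
  have e1 := mn_row hg (prL i) (prR i)
  have e2 := mn_col hh (prL j) (prR j)
  rw [J_pr, neg_zero] at e1 e2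
  simp only [psiM_apply, Matrix.mul_apply, Fintype.sum_sum_type, Fin.sum_univ_two]
  rw [mn_mul]
  have p0 : prL (Sum.inl 0) = Sum.inl 0 := rfl
  have p1 : prL (Sum.inl 1) = Sum.inl 0 := rfl
  have p2 : prL (Sum.inr 0) = Sum.inr 0 := rfl
  have p3 : prL (Sum.inr 1) = Sum.inl 1 := rfl
  have q0 : prR (Sum.inl 0) = Sum.inl 1 := rfl
  have q1 : prR (Sum.inl 1) = Sum.inr 1 := rfl
  have q2 : prR (Sum.inr 0) = Sum.inr 1 := rfl
  have q3 : prR (Sum.inr 1) = Sum.inr 0 := rfl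
  rw [p0, p1, p2, p3, q0, q1, q2, q3]
  linear_combination (mn g (prL i) (prR i) (Sum.inl 0) (Sum.inr 0) *
    mn h (Sum.inl 0) (Sum.inr 0) (prL j) (prR j)) * h2 -
    mn h (Sum.inl 0) (Sum.inr 0) (prL j) (prR j) * e1 +
    mn g (prL i) (prR i) (Sum.inl 1) (Sum.inr 1) * e2

theorem psiM_one : psiM (1 : M4) = 1 := by
  ext i j
  rcases i with i | i <;> rcases j with j | j <;> fin_cases i <;> fin_cases j <;>
    simp [psiM_apply, mn, prL, prR, Matrix.one_apply]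

end Cfsg.Agent.Lib.Helper43.AutSp4
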