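import Mathlib
import Cfsg.Agent.Lib.Helper43.AutSp4.Minor
import Cfsg.Agent.Lib.Helper43.AutPSp.SylowTwo
import Cfsg.Agent.Lib.Helper43.AutPSp.Auts
import Cfsg.Agent.Lib.Helper8.SpGen

set_option autoImplicit false

/-!
# The exceptional automorphism of `PSp_4` in characteristic two
-/

namespace Cfsg.Agent.Lib.Helper43.AutSp4

open Matrix Cfsg.Agent.Lib.Helper13 Cfsg.Agent.Lib.Helper43.AutPSp

section ring

variable {F : Type*} [CommRing F]

local notation "I4" => Fin 2 ⊕ Fin 2
local notation "M4" => Matrix (Fin 2 ⊕ Fin 2) (Fin 2 ⊕ Fin 2) F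

theorem eq_of_add_two {P Q : F} (h2 : (2 : F) = 0) (h : P + Q = 0) : P = Q := by
  linear_combination h - Q * h2

theorem tv_apply (u : I4 → F) (c : F) (i j : I4) :
    Cfsg.sympTransvection 2 u c i j =
      (if i = j then 1 else 0) +
        c * (u i * Sum.elim (fun k => - u (Sum.inr k)) (fun k => u (Sum.inl k)) j) := by
  unfold Cfsg.sympTransvection
  rw [Matrix.add_apply, Matrix.smul_apply, Matrix.vecMulVec_apply, Matrix.one_apply, smul_eq_mul]
  congr 2
  rcases j with j | j <;>
    simp [Matrix.J, Matrix.mulVec, dotProduct, Fintype.sum_sum_type, Matrix.one_apply]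

set_option maxHeartbeats 1000000 in
/-- The matrix of minors of a transvection is symplectic (characteristic two). -/
theorem psiM_tv_mem (h2 : (2 : F) = 0) (u : I4 → F) (c : F) :
    psiM (Cfsg.sympTransvection 2 u c) ∈ Matrix.symplecticGroup (Fin 2) F := by
  have h4 : (4 : F) = 0 := by linear_combination 2 * h2
  have h6 : (6 : F) = 0 := by linear_combination 3 * h2
  have h8 : (8 : F) = 0 := by linear_combination 4 * h2
  rw [SymplecticGroup.mem_iff]
  ext i j
  rcases i with i | i <;> rcases j with j | j <;> fin_cases i <;> fin_cases j <;>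
    simp [Matrix.mul_apply, Fintype.sum_sum_type, Fin.sum_univ_two, Matrix.J, Matrix.one_apply,
      psiM_apply, mn, prL, prR, tv_apply] <;>
    apply eq_of_add_two h2 <;> ring_nf <;>
    simp only [h2, h4, h6, h8, mul_zero, add_zero, sub_zero, neg_zero]

set_option maxHeartbeats 1000000 in
/-- Applying the matrix of minors twice to a transvection squares the entries. -/
theorem psiM_psiM_tv (h2 : (2 : F) = 0) (u : I4 → F) (c : F) (i j : I4) :
    psiM (psiM (Cfsg.sympTransvection 2 u c)) i j = (Cfsg.sympTransvection 2 u c i j) ^ 2 := by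
  have h4 : (4 : F) = 0 := by linear_combination 2 * h2
  have h6 : (6 : F) = 0 := by linear_combination 3 * h2
  have h8 : (8 : F) = 0 := by linear_combination 4 * h2
  rcases i with i | i <;> rcases j with j | j <;> fin_cases i <;> fin_cases j <;>
    simp [psiM_apply, mn, prL, prR, tv_apply] <;>
    apply eq_of_add_two h2 <;> ring_nf <;>
    simp only [h2, h4, h6, h8, mul_zero, add_zero, sub_zero, neg_zero]

end ring

section field

variable {F : Type*} [Field F] (h2 : (2 : F) = 0)

local notation "I4" => Fin 2 ⊕ Fin 2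
local notation "M4" => Matrix (Fin 2 ⊕ Fin 2) (Fin 2 ⊕ Fin 2) F
set_option quotPrecheck false in
local notation "Sp4" => ↥(Matrix.symplecticGroup (Fin 2) F)

include h2 in
theorem psiM_mem (g : Sp4) : psiM g.1 ∈ Matrix.symplecticGroup (Fin 2) F := by
  have hg : g ∈ Subgroup.closure (Cfsg.Agent.Lib.Helper8.spTSet 2 F) := by
    rw [Cfsg.Agent.Lib.Helper8.closure_spTSet]
    trivial
  induction hg using Subgroup.closure_induction with
  | mem x hx =>
    obtain ⟨w, c, e⟩ := hx
    rw [e]
    exact psiM_tv_mem h2 w c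
  | one =>
    rw [show ((1 : Sp4).1) = (1 : M4) from rfl, psiM_one]
    exact Submonoid.one_mem _
  | mul x y hx hy ihx ihy =>
    rw [show (x * y).1 = x.1 * y.1 from rfl, psiM_mul h2 x.2 y.2]
    exact Submonoid.mul_mem _ ihx ihy
  | inv x hx ih =>
    have h1 : psiM x.1 * psiM (x⁻¹).1 = 1 := by
      rw [← psiM_mul h2 x.2 (x⁻¹).2, ← Submonoid.coe_mul, mul_inv_cancel]
      exact psiM_one
    have h3 : ((⟨psiM x.1, ih⟩ : Sp4)⁻¹).1 * psiM x.1 = 1 := by
      have := congrArg Subtype.val (inv_mul_cancel (⟨psiM x.1, ih⟩ : Sp4))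
      exact this
    have h4 : psiM (x⁻¹).1 = ((⟨psiM x.1, ih⟩ : Sp4)⁻¹).1 := by
      calc psiM (x⁻¹).1 = (((⟨psiM x.1, ih⟩ : Sp4)⁻¹).1 * psiM x.1) * psiM (x⁻¹).1 := by
            rw [h3, Matrix.one_mul]
        _ = ((⟨psiM x.1, ih⟩ : Sp4)⁻¹).1 := by rw [Matrix.mul_assoc, h1, Matrix.mul_one]
    rw [h4]
    exact ((⟨psiM x.1, ih⟩ : Sp4)⁻¹).2

/-- The exceptional endomorphism of `Sp_4` in characteristic two. -/
def psiS : ↥(Matrix.symplecticGroup (Fin 2) F) →* ↥(Matrix.symplecticGroup (Fin 2) F) where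
  toFun g := ⟨psiM g.1, psiM_mem h2 g⟩
  map_one' := Subtype.ext psiM_one
  map_mul' g h := Subtype.ext (psiM_mul h2 g.2 h.2)

theorem psiS_coe (g : Sp4) : (psiS h2 g).1 = psiM g.1 := rfl

/-- Squaring as a ring endomorphism in characteristic two. -/
def sqHom : F →+* F where
  toFun x := x ^ 2
  map_one' := one_pow 2
  map_mul' x y := mul_pow x y 2
  map_zero' := by simp
  map_add' x y := by linear_combination (x * y) * h2

/-- The Frobenius automorphism of a finite field of characteristic two. -/
noncomputable def frob2 [Finite F] : RingAut F :=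
  RingEquiv.ofBijective (sqHom h2)
    ⟨(sqHom h2).injective, Finite.surjective_of_injective (sqHom h2).injective⟩

theorem frob2_apply [Finite F] (x : F) : frob2 h2 x = x ^ 2 := rfl

theorem psiS_psiS [Finite F] (g : Sp4) : psiS h2 (psiS h2 g) = fAutS (frob2 h2) g := by
  have key : (psiS h2).comp (psiS h2) = (fAutS (frob2 h2) : MulAut Sp4).toMonoidHom := by
    apply MonoidHom.eq_of_eqOn_dense (Cfsg.Agent.Lib.Helper8.closure_spTSet (m := 2) (F := F))
    rintro x ⟨w, c, e⟩
    apply Subtype.ext
    ext i j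
    show psiM (psiM x.1) i j = (x.1.map (frob2 h2)) i j
    rw [e, psiM_psiM_tv h2, Matrix.map_apply, frob2_apply]
  exact DFunLike.congr_fun key g

theorem psiS_bijective [Finite F] : Function.Bijective (psiS h2) := by
  have hinj : Function.Injective (psiS h2) := by
    intro a b hab
    have := congrArg (psiS h2) hab
    rw [psiS_psiS, psiS_psiS] at this
    exact (fAutS (frob2 h2)).injective this
  exact ⟨hinj, Finite.surjective_of_injective hinj⟩

/-- The exceptional automorphism of `Sp_4` in characteristic two. -/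
noncomputable def psiE [Finite F] : MulAut ↥(Matrix.symplecticGroup (Fin 2) F) :=
  MulEquiv.ofBijective (psiS h2) (psiS_bijective h2)

/-- The exceptional automorphism of `PSp_4` in characteristic two. -/
noncomputable def Psi [Finite F] : MulAut (Cfsg.PSp 2 F) := pspAut (psiE h2)

theorem Psi_pm [Finite F] (s : Sp4) : Psi h2 (pm s) = pm (psiS h2 s) := rfl

/-- The square of the exceptional automorphism is the Frobenius field automorphism. -/
theorem Psi_sq [Finite F] : Psi h2 * Psi h2 = fg (frob2 h2) := by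
  ext x
  obtain ⟨s, rfl⟩ := pm_surjective x
  rw [MulAut.mul_apply, Psi_pm, Psi_pm, psiS_psiS, fg_pm]

/-- The exceptional automorphism does not preserve the class of transvections. -/
theorem Psi_tv_not_mem [Finite F] :
    Psi h2 (pm (tvS (e0 : I4 → F) 1)) ∉ TvSet 2 F := by
  rintro ⟨u, c, hu, hc, e⟩
  rw [Psi_pm] at e
  have e' := pm_inj_two h2 (by norm_num) e
  have e1 := congrArg (fun s : Sp4 => s.1 (Sum.inl 1) (Sum.inr 0)) e'
  have e2 := congrArg (fun s : Sp4 => s.1 (Sum.inl 0) (Sum.inr 0)) e'
  simp [psiS, psiM_apply, mn, prL, prR, tvS, tv_apply, e0] at e1 e2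
  rcases e2 with h | h
  · exact hc h
  · rw [h, mul_zero, mul_zero] at e1
    exact one_ne_zero e1

end field

end Cfsg.Agent.Lib.Helper43.AutSp4
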