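import Mathlib
import Cfsg.Agent.Lib.Helper43.AutSp4.Class
import Cfsg.Agent.Lib.Helper43.AutSp4.Graph
import Cfsg.Agent.Lib.Helper43.AutPSp.GSp
import Cfsg.Agent.Lib.Helper43.AutPSp.FieldCount
import Cfsg.Agent.Lib.Helper43.AutPSLn.Final
import Cfsg.Agent.Lib.Helper40.SympCenter

set_option autoImplicit false

/-!
# The order of `Aut(PSp_{2m}(q))`
-/

namespace Cfsg.Agent.Lib.Helper43.AutSp4

open Matrix Cfsg.Agent.Lib.Helper13 Cfsg.Agent.Lib.Helper43.AutPSp

theorem card_of_prod {G : Type*} [Group G] (N K Γ : Subgroup G) (hN : N ≤ Γ) (hK : K ≤ Γ)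
    (hdisj : ∀ x, x ∈ N → x ∈ K → x = 1) (hsurj : ∀ x ∈ Γ, ∃ n ∈ N, ∃ k ∈ K, x = n * k) :
    Nat.card Γ = Nat.card N * Nat.card K := by
  rw [← Nat.card_prod]
  symm
  apply Nat.card_congr
  refine Equiv.ofBijective
    (fun x : N × K => (⟨x.1.1 * x.2.1, Γ.mul_mem (hN x.1.2) (hK x.2.2)⟩ : Γ)) ⟨?_, ?_⟩
  · rintro ⟨⟨n, hn⟩, ⟨k, hk⟩⟩ ⟨⟨n', hn'⟩, ⟨k', hk'⟩⟩ h
    have h1 : n * k = n' * k' := congrArg Subtype.val h
    have h2 : n'⁻¹ * n = k' * k⁻¹ := by
      rw [inv_mul_eq_iff_eq_mul, ← mul_assoc, ← h1, mul_inv_cancel_right]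
    have h3 : n'⁻¹ * n = 1 :=
      hdisj _ (N.mul_mem (N.inv_mem hn') hn) (h2 ▸ K.mul_mem hk' (K.inv_mem hk))
    have h4 : n = n' := by
      rw [inv_mul_eq_one] at h3
      exact h3.symm
    subst h4
    have h5 : k = k' := mul_left_cancel h1
    subst h5
    rfl
  · rintro ⟨x, hx⟩
    obtain ⟨n, hn, k, hk, rfl⟩ := hsurj x hx
    exact ⟨(⟨n, hn⟩, ⟨k, hk⟩), rfl⟩

variable {m : ℕ} {F : Type*} [Field F]

local notation "V" => Fin m ⊕ Fin m → F
local notation "Mx" => Matrix (Fin m ⊕ Fin m) (Fin m ⊕ Fin m) F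
set_option quotPrecheck false in
local notation "Sp" => ↥(Matrix.symplecticGroup (Fin m) F)
local notation "PSpm" => Cfsg.PSp m F
local notation "B" => Cfsg.sympForm m F
local notation "GLm" => GL (Fin m ⊕ Fin m) F

/-- An inner-diagonal automorphism which is a field automorphism is trivial. -/
theorem eq_one_of_cg_eq_fg [NeZero m] (hm : 2 ≤ m) (g : ↥(Cfsg.GSp m F)) (τ : RingAut F)
    (h : (cg g : MulAut PSpm) = fg τ) : τ = 1 := by
  have key : ∀ c : F, tvS (((g : GLm) : Mx) *ᵥ (e0 : V)) (c / mult (g : GLm)) =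
      tvS (e0 : V) (τ c) := by
    intro c
    have h1 := congrArg (fun α : MulAut PSpm => α (pm (tvS (e0 : V) c))) h
    simp only [cg_pm, fg_pm, gAutS_tvS, fAutS_tvS, tw_e0] at h1
    exact tvS_eq_of_pm_eq hm h1
  have h1 := key 1
  rw [map_one] at h1
  have hge : ((g : GLm) : Mx) *ᵥ (e0 : V) ≠ 0 := by
    intro h0
    have := gl_inv_mulVec (g : GLm) (e0 : V)
    rw [h0, Matrix.mulVec_zero] at this
    exact e0_ne_zero this.symm
  have hμ := mult_ne_zero g.2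
  obtain ⟨a, ha, hpar⟩ : Par (e0 : V) (((g : GLm) : Mx) *ᵥ (e0 : V)) :=
    par_of_tvS_eq hge (one_div_ne_zero hμ) h1
  ext c
  have h3 := key c
  rw [hpar, tvS_smul] at h3 h1
  have e1 := tvS_e0_inj h1
  have e2 := tvS_e0_inj h3
  show τ c = c
  rw [← e2]
  calc a * a * (c / mult (g : GLm)) = c * (a * a * (1 / mult (g : GLm))) := by ring
    _ = c := by rw [e1, mul_one]

/-- The inner-diagonal group has the order of the symplectic group. -/
theorem card_range_cg [NeZero m] [Finite F] (hm : 2 ≤ m) :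
    Nat.card (cg : ↥(Cfsg.GSp m F) →* MulAut PSpm).range = Nat.card Sp := by
  have h1 := Subgroup.card_mul_index (cg : ↥(Cfsg.GSp m F) →* MulAut PSpm).ker
  rw [Subgroup.index_ker] at h1
  have hker : (cg : ↥(Cfsg.GSp m F) →* MulAut PSpm).ker =
      (scG : Fˣ →* ↥(Cfsg.GSp m F)).range := by
    ext k
    rw [MonoidHom.mem_ker, MonoidHom.mem_range]
    constructor
    · intro h
      obtain ⟨c, rfl⟩ := exists_scG_of_cg_eq_one hm k h
      exact ⟨c, rfl⟩
    · rintro ⟨c, rfl⟩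
      exact cg_scG c
  have h2 : Nat.card (scG : Fˣ →* ↥(Cfsg.GSp m F)).range = Nat.card Fˣ :=
    (Nat.card_congr (MonoidHom.ofInjective scG_injective).toEquiv).symm
  have h3 := Subgroup.card_mul_index (multH : ↥(Cfsg.GSp m F) →* Fˣ).ker
  rw [Subgroup.index_ker, MonoidHom.range_eq_top.mpr multH_surjective, Subgroup.card_top] at h3
  have hker2 : (multH : ↥(Cfsg.GSp m F) →* Fˣ).ker = (toGSp : Sp →* ↥(Cfsg.GSp m F)).range := by
    ext g
    rw [MonoidHom.mem_ker, MonoidHom.mem_range]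
    constructor
    · intro h
      exact exists_toGSp_of_multH g h
    · rintro ⟨s, rfl⟩
      exact multH_toGSp s
  have hinj : Function.Injective (toGSp : Sp →* ↥(Cfsg.GSp m F)) := by
    intro a b hab
    apply Subtype.ext
    have := congrArg (fun g : ↥(Cfsg.GSp m F) => ((g : GLm) : Mx)) hab
    exact this
  have h4 : Nat.card (toGSp : Sp →* ↥(Cfsg.GSp m F)).range = Nat.card Sp :=
    (Nat.card_congr (MonoidHom.ofInjective hinj).toEquiv).symm
  rw [hker, h2] at h1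
  rw [hker2, h4] at h3
  have hpos : 0 < Nat.card Fˣ := Nat.card_pos
  have : Nat.card Fˣ * Nat.card (cg : ↥(Cfsg.GSp m F) →* MulAut PSpm).range =
      Nat.card Fˣ * Nat.card Sp := by rw [h1, ← h3, mul_comm]
  exact Nat.eq_of_mul_eq_mul_left hpos this

/-- The order of a group of automorphisms consisting of the semilinear ones. -/
theorem card_pgamma [NeZero m] [Fintype F] {p f : ℕ} [Fact p.Prime]
    (hF : Fintype.card F = p ^ f) (hm : 2 ≤ m) (Γ : Subgroup (MulAut PSpm))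
    (hN : (cg : ↥(Cfsg.GSp m F) →* MulAut PSpm).range ≤ Γ)
    (hK : (fg : RingAut F →* MulAut PSpm).range ≤ Γ)
    (hΓ : ∀ α ∈ Γ, ∃ (g : ↥(Cfsg.GSp m F)) (τ : RingAut F), α = cg g * fg τ) :
    Nat.card Γ = Nat.card Sp * f := by
  rw [card_of_prod _ _ Γ hN hK, card_range_cg hm]
  · congr 1
    rw [← AutPSLn.card_ringAut hF]
    exact (Nat.card_congr (MonoidHom.ofInjective (fg_injective hm)).toEquiv).symm
  · rintro x ⟨g, rfl⟩ ⟨τ, hτ⟩
    have := eq_one_of_cg_eq_fg hm g τ hτ.symm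
    rw [← hτ, this, map_one]
  · intro α hα
    obtain ⟨g, τ, rfl⟩ := hΓ α hα
    exact ⟨cg g, ⟨g, rfl⟩, fg τ, ⟨τ, rfl⟩, rfl⟩

/-- `|Sp| = gcd(2, q - 1) |PSp|`. -/
theorem card_sp_eq [Fintype F] (hm : 1 ≤ m) :
    Nat.card Sp = Nat.gcd 2 (Fintype.card F - 1) * Nat.card (Cfsg.PSp m F) := by
  rw [Subgroup.card_eq_card_quotient_mul_card_subgroup (Subgroup.center Sp),
    Cfsg.Agent.Lib.Helper40.card_center_symplectic m hm, mul_comm]

/-- `|Aut(PSp_{2m}(q))|` when the automorphisms permute the root subgroups. -/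
theorem card_aut_of_rootPerm [NeZero m] [Fintype F] {p f : ℕ} [Fact p.Prime]
    (hF : Fintype.card F = p ^ f) (hm : 2 ≤ m) (H : RootPerm m F) :
    Nat.card (MulAut PSpm) = Nat.card Sp * f := by
  rw [← card_pgamma hF hm ⊤ le_top le_top (fun α _ => aut_structure hm H α), Subgroup.card_top]

section sp4

variable [Fintype F] (h2 : (2 : F) = 0)

local notation "I4" => Fin 2 ⊕ Fin 2

include h2 in
theorem Psi_not_mem : Psi h2 ∉ tvStab 2 F := by
  intro h
  exact Psi_tv_not_mem h2 ((h _).mpr ⟨e0, 1, e0_ne_zero, one_ne_zero, rfl⟩)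

include h2 in
theorem tvStab_index : (tvStab 2 F).index = 2 := by
  rw [Subgroup.index_eq_two_iff]
  refine ⟨Psi h2, fun b => ?_⟩
  by_cases hb : b ∈ tvStab 2 F
  · right
    refine ⟨hb, fun h => Psi_not_mem h2 ?_⟩
    have := (tvStab 2 F).mul_mem ((tvStab 2 F).inv_mem hb) h
    rwa [inv_mul_cancel_left] at this
  · left
    refine ⟨?_, hb⟩
    have hb' : b⁻¹ ∉ tvStab 2 F := fun h => hb (by simpa using (tvStab 2 F).inv_mem h)
    have := tvStab_dichotomy h2 (le_refl 2) (Psi h2) b⁻¹ (Psi_not_mem h2) hb'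
    rwa [inv_inv] at this

include h2 in
/-- `|Aut(PSp_4(2^f))|`. -/
theorem card_aut_sp4_two {p f : ℕ} [Fact p.Prime] (hF : Fintype.card F = p ^ f) :
    Nat.card (MulAut (Cfsg.PSp 2 F)) =
      2 * (Nat.card ↥(Matrix.symplecticGroup (Fin 2) F) * f) := by
  have h1 := Subgroup.card_mul_index (tvStab 2 F)
  rw [tvStab_index h2, card_pgamma hF (le_refl 2) (tvStab 2 F)
    (by rintro _ ⟨g, rfl⟩; exact cg_mem_tvStab g) (by rintro _ ⟨τ, rfl⟩; exact fg_mem_tvStab τ)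
    (fun α hα => tvStab_structure (le_refl 2) α hα)] at h1
  rw [← h1, mul_comm]

end sp4

end Cfsg.Agent.Lib.Helper43.AutSp4
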