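import Mathlib
import Cfsg.Agent.S0270
import Cfsg.Agent.Lib.Helper43.AutPSp.Basic

set_option autoImplicit false

/-!
# Normal subgroups of the symplectic group

A normal subgroup of `Sp_{2m}(F)` not contained in the centre contains all `r`-th powers, where
`r` is the characteristic.  (This is Iwasawa's argument; no perfectness is needed.)
-/

namespace Cfsg.Agent.Lib.Helper43.AutSp4

open Matrix MulAction Cfsg.Agent.Lib.Helper13 Cfsg.Agent.Lib.Helper43.AutPSp
open scoped LinearAlgebra.Projectivization Pointwise commutatorElement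

variable {F : Type*} [Field F] {m : ℕ}

attribute [local instance] Cfsg.Agent.S0270.spMulAction

theorem pow_char_mem_of_normal (r : ℕ) [CharP F r]
    (N : Subgroup ↥(Matrix.symplecticGroup (Fin m) F)) [N.Normal]
    (hN : ¬ N ≤ Subgroup.center ↥(Matrix.symplecticGroup (Fin m) F))
    (s : ↥(Matrix.symplecticGroup (Fin m) F)) : s ^ r ∈ N := by
  haveI := Cfsg.Agent.S0270.isPreprimitive (F := F) (m := m)
  have hfix : fixedPoints N (ℙ F (Fin m ⊕ Fin m → F)) ≠ Set.univ := by
    intro hfix
    apply hN
    intro g hg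
    apply Cfsg.Agent.S0270.mem_center_of_fixes
    intro p
    have hp : p ∈ fixedPoints N (ℙ F (Fin m ⊕ Fin m → F)) := hfix ▸ Set.mem_univ p
    exact hp ⟨g, hg⟩
  have h1 := Cfsg.Agent.S0270.iwasawa.commutator_le N hfix
  have hcomm : ∀ a b : ↥(Matrix.symplecticGroup (Fin m) F) ⧸ N, a * b = b * a := by
    intro a b
    obtain ⟨s, rfl⟩ := QuotientGroup.mk_surjective a
    obtain ⟨t, rfl⟩ := QuotientGroup.mk_surjective b
    rw [← QuotientGroup.mk_mul, ← QuotientGroup.mk_mul, QuotientGroup.eq]
    apply h1
    have : (s * t)⁻¹ * (t * s) = ⁅t⁻¹, s⁻¹⁆ := by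
      rw [commutatorElement_def]
      group
    rw [this, commutator_def]
    exact Subgroup.commutator_mem_commutator (Subgroup.mem_top _) (Subgroup.mem_top _)
  have key : ∀ s : ↥(Matrix.symplecticGroup (Fin m) F),
      (QuotientGroup.mk s : ↥(Matrix.symplecticGroup (Fin m) F) ⧸ N) ^ r = 1 := by
    intro s
    have hs : s ∈ Subgroup.closure (Cfsg.Agent.Lib.Helper8.spTSet m F) := by
      rw [Cfsg.Agent.Lib.Helper8.closure_spTSet]
      trivial
    induction hs using Subgroup.closure_induction with
    | mem x hx =>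
      obtain ⟨w, c, e⟩ := hx
      have hx' : x = tvS w c := Subtype.ext e
      rw [← QuotientGroup.mk_pow, hx', tvS_pow, CharP.cast_eq_zero F r, zero_mul, tvS_zero]
      rfl
    | one => exact one_pow r
    | mul x y _ _ ihx ihy =>
      rw [QuotientGroup.mk_mul, (show Commute _ _ from hcomm _ _).mul_pow, ihx, ihy, one_mul]
    | inv x _ ih => rw [QuotientGroup.mk_inv, inv_pow, ih, inv_one]
  have := key s
  rwa [← QuotientGroup.mk_pow, QuotientGroup.eq_one_iff] at this

end Cfsg.Agent.Lib.Helper43.AutSp4
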