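import Mathlib
import Cfsg.Agent.Lib.Helper43.AutSp4.Count
import Cfsg.Agent.Lib.Helper43.AutSp4.Core
import Cfsg.Agent.Lib.Helper43.AutSp4.Iwasawa
import Cfsg.Agent.Lib.Helper43.AutPSp.FieldCent
import Cfsg.Agent.Lib.Helper43.AutPSp.FieldCoset

set_option autoImplicit false

/-!
# Local balance for `PSp_{2m}(q)`: the centralizer of a field automorphism
-/

namespace Cfsg.Agent.Lib.Helper43.AutSp4

open Matrix Cfsg.Agent.Lib.Helper13 Cfsg.Agent.Lib.Helper43.AutPSp Cfsg.Agent.Lib.Helper43.FieldAut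

variable {m : ℕ} {F : Type*} [Field F] {F₀ : Type*} [Field F₀]

local notation "V" => Fin m ⊕ Fin m → F
local notation "Mx" => Matrix (Fin m ⊕ Fin m) (Fin m ⊕ Fin m) F
local notation "Mx₀" => Matrix (Fin m ⊕ Fin m) (Fin m ⊕ Fin m) F₀
set_option quotPrecheck false in
local notation "Sp" => ↥(Matrix.symplecticGroup (Fin m) F)
set_option quotPrecheck false in
local notation "Sp₀" => ↥(Matrix.symplecticGroup (Fin m) F₀)
local notation "PSpm" => Cfsg.PSp m F
local notation "B" => Cfsg.sympForm m F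
local notation "GLm" => GL (Fin m ⊕ Fin m) F

theorem conj_aut {G : Type*} [Group G] (α : MulAut G) (k : G) :
    α * MulAut.conj k * α⁻¹ = MulAut.conj (α k) := by
  ext x
  simp [MulAut.conj_apply, map_mul]

/-- `PSp` has trivial centre. -/
theorem conj_injective [NeZero m] (hm : 2 ≤ m) :
    Function.Injective (MulAut.conj : PSpm →* MulAut PSpm) := by
  rw [injective_iff_map_eq_one]
  intro k hk
  obtain ⟨s, rfl⟩ := pm_surjective k
  rw [← cg_toGSp] at hk
  obtain ⟨c, hc⟩ := exists_scG_of_cg_eq_one hm _ hk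
  have hs : ∀ y : V, s.1 *ᵥ y = (c : F) • y := by
    intro y
    have := congrArg (fun g : ↥(Cfsg.GSp m F) => ((g : GLm) : Mx) *ᵥ y) hc
    simp only [scG_mulVec] at this
    exact this
  have h1 : pm s = pm 1 := by
    apply pm_eq_of_par (by omega)
    intro y hy
    refine ⟨(c : F)⁻¹, inv_ne_zero c.ne_zero, ?_⟩
    rw [AutPSp.mulVec_one, hs, smul_smul, inv_mul_cancel₀ c.ne_zero, one_smul]
  rw [h1, map_one]

/-! ### The symplectic group of the fixed field inside the automorphism group -/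

/-- The symplectic group over a subfield, acting on `PSp` by conjugation. -/
noncomputable def thetaA (j : F₀ →+* F) :
    ↥(Matrix.symplecticGroup (Fin m) F₀) →* MulAut (Cfsg.PSp m F) :=
  (thetaS j).comp toGSp

theorem thetaA_apply (j : F₀ →+* F) (s : Sp₀) :
    (thetaA j s : MulAut PSpm) = cg (gmapHom j (toGSp s)) := rfl

theorem thetaA_inner [NeZero m] (j : F₀ →+* F) (s : Sp₀) :
    ∃ s' : Sp, (thetaA j s : MulAut PSpm) = MulAut.conj (pm s') := by
  have h1 : multH (gmapHom j (toGSp s)) = 1 := by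
    rw [multH_gmapHom, multH_toGSp, map_one]
  obtain ⟨s', hs'⟩ := exists_toGSp_of_multH _ h1
  exact ⟨s', by rw [thetaA_apply, ← hs', cg_toGSp]⟩

theorem thetaA_comm (τ : RingAut F) (j : F₀ →+* F) (hj : IsFixEmb τ j) (s : Sp₀) :
    (fg τ : MulAut PSpm) * thetaA j s = thetaA j s * fg τ := by
  rw [thetaA_apply, fg_cg, gmapHom_fix τ j hj]

/-- Conjugation by a symplectic matrix fixed by `τ` comes from the fixed field. -/
theorem conj_mem_thetaA [NeZero m] (τ : RingAut F) (j : F₀ →+* F) (hj : IsFixEmb τ j) (s : Sp)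
    (hs : fAutS τ s = s) : ∃ s₀ : Sp₀, (thetaA j s₀ : MulAut PSpm) = MulAut.conj (pm s) := by
  have h1 : gmapHom (τ : F →+* F) (toGSp s) = toGSp s := by
    apply gsp_ext
    rw [gmapHom_coe, toGSp_coe]
    exact congrArg Subtype.val hs
  obtain ⟨k₀, hk₀⟩ := exists_gmapHom_of_fixed τ j hj (toGSp s) h1
  have h2 : multH k₀ = 1 := by
    have h3 := multH_gmapHom j k₀
    rw [hk₀, multH_toGSp] at h3
    have hinj : Function.Injective (Units.map (j : F₀ →* F)) :=
      Units.map_injective j.injective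
    exact hinj (by rw [← h3, map_one])
  obtain ⟨s₀, hs₀⟩ := exists_toGSp_of_multH k₀ h2
  exact ⟨s₀, by rw [thetaA_apply, hs₀, hk₀, cg_toGSp]⟩

/-! ### Automorphisms fixing the transvections over the fixed field -/

/-- An automorphism `cg g * fg σ` fixing all transvections defined over the fixed field of `τ`
is the field automorphism `fg σ`, and `σ` fixes the fixed field of `τ` pointwise. -/
theorem cg_eq_one_of_fix [NeZero m] (hm : 2 ≤ m) (τ : RingAut F) (g : ↥(Cfsg.GSp m F))
    (σ : RingAut F)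
    (hc : ∀ (u : V) (c : F), tw τ u = u → τ c = c →
      (cg g * fg σ : MulAut PSpm) (pm (tvS u c)) = pm (tvS u c)) :
    (cg g : MulAut PSpm) = 1 ∧ ∀ c : F, τ c = c → σ c = c := by
  classical
  have hμ := mult_ne_zero g.2
  have key : ∀ u : V, tw τ u = u → u ≠ 0 →
      ∃ a : F, ((g : GLm) : Mx) *ᵥ tw σ u = a • u := by
    intro u hu hu0
    have h1 := hc u 1 hu (map_one τ)
    rw [MulAut.mul_apply, fg_pm, fAutS_tvS, cg_pm, gAutS_tvS] at h1
    have h2 := tvS_eq_of_pm_eq hm h1
    have hne : ((g : GLm) : Mx) *ᵥ tw σ u ≠ 0 := by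
      intro h0
      have := gl_inv_mulVec (g : GLm) (tw σ u)
      rw [h0, Matrix.mulVec_zero] at this
      exact tw_ne_zero σ hu0 this.symm
    obtain ⟨a, -, ha⟩ := par_of_tvS_eq hne (by rw [map_one]; exact one_div_ne_zero hμ) h2
    exact ⟨a, ha⟩
  have hsingle : ∀ (ρ : RingAut F) (i : Fin m ⊕ Fin m),
      tw ρ (Pi.single i 1 : V) = Pi.single i 1 := by
    intro ρ i
    ext k
    unfold tw
    by_cases hk : k = i
    · rw [hk, Pi.single_eq_same, map_one]
    · rw [Pi.single_eq_of_ne hk, map_zero]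
  have hs0 : ∀ i : Fin m ⊕ Fin m, (Pi.single i 1 : V) ≠ 0 := by
    intro i h
    have := congrFun h i
    rw [Pi.single_eq_same] at this
    exact one_ne_zero this
  have hdiag : ∀ i : Fin m ⊕ Fin m, ∃ a : F,
      ((g : GLm) : Mx) *ᵥ (Pi.single i 1 : V) = a • Pi.single i 1 := by
    intro i
    obtain ⟨a, ha⟩ := key _ (hsingle τ i) (hs0 i)
    rw [hsingle σ i] at ha
    exact ⟨a, ha⟩
  choose lam hlam using hdiag
  have hsame : ∀ i k : Fin m ⊕ Fin m, lam i = lam k := by
    intro i k
    by_cases hik : i = k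
    · rw [hik]
    have hv : tw τ ((Pi.single i 1 : V) + Pi.single k 1) = Pi.single i 1 + Pi.single k 1 := by
      rw [tw_add, hsingle, hsingle]
    have hv0 : (Pi.single i 1 : V) + Pi.single k 1 ≠ 0 := by
      intro h
      have := congrFun h i
      rw [Pi.add_apply, Pi.single_eq_same, Pi.single_eq_of_ne hik, add_zero] at this
      exact one_ne_zero this
    obtain ⟨a, ha⟩ := key _ hv hv0
    rw [tw_add, hsingle, hsingle, Matrix.mulVec_add, hlam, hlam] at ha
    have e1 := congrFun ha i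
    have e2 := congrFun ha k
    simp only [Pi.add_apply, Pi.smul_apply, Pi.single_eq_same, Pi.single_eq_of_ne hik,
      Pi.single_eq_of_ne (Ne.symm hik), smul_eq_mul, mul_one, mul_zero, add_zero, zero_add]
      at e1 e2
    rw [e1, e2]
  have hmat : ((g : GLm) : Mx) = lam (Sum.inl 0) • (1 : Mx) := by
    ext a b
    have h1 := congrFun (hlam b) a
    rw [Matrix.mulVec_single_one] at h1
    rw [Matrix.smul_apply, Matrix.one_apply, ← hsame b (Sum.inl 0)]
    rw [Pi.smul_apply, Pi.single_apply] at h1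
    exact h1
  have hlam0 : lam (Sum.inl 0) ≠ 0 := by
    intro h0
    have h1 := hlam (Sum.inl 0)
    rw [h0, zero_smul] at h1
    have := gl_inv_mulVec (g : GLm) (Pi.single (Sum.inl 0) 1 : V)
    rw [h1, Matrix.mulVec_zero] at this
    exact hs0 _ this.symm
  have hg : g = scG (Units.mk0 _ hlam0) := by
    apply gsp_ext
    rw [scG_coe, Units.val_mk0, hmat]
  have hcg : (cg g : MulAut PSpm) = 1 := by
    rw [hg, cg_scG]
  refine ⟨hcg, fun c hτc => ?_⟩
  have h1 := hc e0 c (tw_e0 τ) hτc
  rw [MulAut.mul_apply, hcg, MulAut.one_apply, fg_pm, fAutS_tvS, tw_e0] at h1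
  exact pm_tvS_e0_inj hm h1

/-- An automorphism of a finite field fixing the fixed field of `τ` pointwise is a power of
`τ`. -/
theorem mem_zpowers_of_fix [Finite F] (τ σ : RingAut F) (h : ∀ c : F, τ c = c → σ c = c) :
    σ ∈ Subgroup.zpowers τ := by
  classical
  have := finite_ringAut F
  haveI : Fintype (Subgroup.zpowers τ) := Fintype.ofFinite _
  let e : F ≃ₐ[fixF τ] F := AlgEquiv.ofRingEquiv (f := σ) (fun r => h r ((mem_fixF τ).mp r.2))
  obtain ⟨g, hg⟩ := (FixedPoints.toAlgAutMulEquiv (Subgroup.zpowers τ) F).surjective e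
  have h1 : (g : RingAut F) = σ := by
    ext x
    have := congrArg (fun e' : F ≃ₐ[fixF τ] F => e' x) hg
    exact this
  rw [← h1]
  exact g.2

/-! ### An involution -/

theorem exists_diag_involution (hm : 2 ≤ m) (h2 : (2 : F) ≠ 0) :
    ∃ s : Sp, s * s = 1 ∧ ∀ c : F, s.1 ≠ c • (1 : Mx) := by
  classical
  let e : Fin m → F := fun a => if (a : ℕ) = 0 then -1 else 1
  let d : Fin m ⊕ Fin m → F := Sum.elim e e
  have he2 : ∀ a, e a * e a = 1 := by
    intro a
    simp only [e]
    split_ifs <;> ring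
  have hmem : Matrix.diagonal d ∈ Matrix.symplecticGroup (Fin m) F := by
    rw [SymplecticGroup.mem_iff, Matrix.diagonal_transpose]
    ext a b
    rw [Matrix.mul_diagonal, Matrix.diagonal_mul]
    rcases a with a | a <;> rcases b with b | b
    · simp [Matrix.J]
    · by_cases hab : a = b
      · subst hab
        simp [Matrix.J, d, he2]
      · simp [Matrix.J, d, Matrix.one_apply, hab]
    · by_cases hab : a = b
      · subst hab
        simp [Matrix.J, d, he2]
      · simp [Matrix.J, d, Matrix.one_apply, hab]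
    · simp [Matrix.J]
  refine ⟨⟨Matrix.diagonal d, hmem⟩, ?_, ?_⟩
  · apply Subtype.ext
    show Matrix.diagonal d * Matrix.diagonal d = 1
    rw [Matrix.diagonal_mul_diagonal]
    have : (fun i => d i * d i) = fun _ => (1 : F) := by
      funext i
      rcases i with a | a <;> exact he2 a
    rw [this, Matrix.diagonal_one]
  · intro c h
    have h' : Matrix.diagonal d = c • (1 : Mx) := h
    have e1 := congrFun (congrFun h' (Sum.inl ⟨0, by omega⟩)) (Sum.inl ⟨0, by omega⟩)
    have e2 := congrFun (congrFun h' (Sum.inl ⟨1, by omega⟩)) (Sum.inl ⟨1, by omega⟩)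
    simp [d, e] at e1 e2
    apply h2
    rw [← e2] at e1
    linear_combination -e1

end Cfsg.Agent.Lib.Helper43.AutSp4
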