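import Mathlib
import Cfsg.Agent.Lib.Helper43.AutSp4.Balance
import Cfsg.Agent.Lib.Helper40.SympCenter

set_option autoImplicit false

/-!
# Local balance for `PSp_{2m}(q)`: the `p'`-core of the centralizer of a field automorphism
-/

namespace Cfsg.Agent.Lib.Helper43.AutSp4

open Matrix Cfsg.Agent.Lib.Helper13 Cfsg.Agent.Lib.Helper43.AutPSp Cfsg.Agent.Lib.Helper43.FieldAut

variable {m : ℕ} {F : Type*} [Field F] {F₀ : Type*} [Field F₀]

local notation "V" => Fin m ⊕ Fin m → F
local notation "Mx" => Matrix (Fin m ⊕ Fin m) (Fin m ⊕ Fin m) F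
local notation "Mx₀" => Matrix (Fin m ⊕ Fin m) (Fin m ⊕ Fin m) F₀
set_option quotPrecheck false in
local notation "Sp" => ↥(Matrix.symplecticGroup (Fin m) F)
set_option quotPrecheck false in
local notation "Sp₀" => ↥(Matrix.symplecticGroup (Fin m) F₀)
local notation "PSpm" => Cfsg.PSp m F
local notation "B" => Cfsg.sympForm m F
local notation "GLm" => GL (Fin m ⊕ Fin m) F

theorem finite_psp [Finite F] : Finite PSpm := by
  haveI : Finite Sp := Finite.of_injective (fun s : Sp => s.1) Subtype.val_injective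
  exact Finite.of_surjective pm pm_surjective

/-- If `p` divides the number of fixed points of the field automorphism, the symplectic group of
the fixed field contains an element of order divisible by `p` (acting on `PSp`). -/
theorem exists_order_dvd [NeZero m] [Finite F] (hm : 2 ≤ m) (τ : RingAut F) (j : F₀ →+* F)
    (hj : IsFixEmb τ j) (p : ℕ) [Fact p.Prime] (h2 : p = 2 → (2 : F) ≠ 0)
    (hdiv : p ∣ Nat.card ↥(MonoidHom.eqLocus (fg τ : MulAut PSpm).toMonoidHom
      (MonoidHom.id PSpm))) :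
    ∃ s₀ : Sp₀, p ∣ orderOf (thetaA j s₀ : MulAut PSpm) := by
  haveI := finite_psp (m := m) (F := F)
  by_cases hp2 : p = 2
  · have h2' : (2 : F₀) ≠ 0 := by
      intro h
      apply h2 hp2
      have := congrArg j h
      rwa [map_ofNat, map_zero] at this
    obtain ⟨s₀, hs1, hs2⟩ := exists_diag_involution (F := F₀) hm h2'
    refine ⟨s₀, ?_⟩
    have hne : (thetaA j s₀ : MulAut PSpm) ≠ 1 := by
      intro h
      have hk : toGSp s₀ ∈ (thetaS j : ↥(Cfsg.GSp m F₀) →* MulAut PSpm).ker := h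
      rw [thetaS_ker hm j, Subgroup.mem_subgroupOf, Cfsg.Geo.mem_scalars_iff] at hk
      obtain ⟨c, hc⟩ := hk
      exact hs2 c hc
    have hsq : (thetaA j s₀ : MulAut PSpm) ^ 2 = 1 := by
      rw [← map_pow, pow_two, hs1, map_one]
    haveI : Fact (Nat.Prime 2) := ⟨Nat.prime_two⟩
    rw [hp2, orderOf_eq_prime hsq hne]
  · obtain ⟨y, hy⟩ := exists_prime_orderOf_dvd_card' p hdiv
    obtain ⟨s, hs⟩ := pm_surjective (y : PSpm)
    have hfix : fg τ (pm s) = pm s := by
      rw [hs]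
      exact y.2
    rw [fg_pm, pm_eq_iff (by omega)] at hfix
    have hfix2 : fAutS τ (s * s) = s * s := by
      rw [map_mul]
      rcases hfix with h | h
      · rw [h]
      · rw [h, (show Commute s negS from (negS_comm s).symm).mul_mul_mul_comm, negS_mul_self,
          one_mul]
    obtain ⟨s₀, hs₀⟩ := conj_mem_thetaA τ j hj (s * s) hfix2
    refine ⟨s₀, ?_⟩
    have hp : p.Prime := Fact.out
    have hodd : Nat.Coprime p 2 := by
      rw [Nat.coprime_primes hp Nat.prime_two]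
      exact hp2
    rw [hs₀, orderOf_injective _ (conj_injective hm), map_mul, hs, ← pow_two,
      Nat.Coprime.orderOf_pow (by rw [Subgroup.orderOf_coe, hy]; exact hodd), Subgroup.orderOf_coe,
      hy]

/-- The fixed points of the field automorphism give a normal subgroup of its centralizer. -/
theorem core_fg_backward [NeZero m] [Finite F] (hm : 2 ≤ m) (τ : RingAut F)
    (A : Subgroup (MulAut PSpm)) (hinn : ∀ k : PSpm, MulAut.conj k ∈ A) (p : ℕ)
    (hcop : Nat.Coprime p (Nat.card ↥(MonoidHom.eqLocus (fg τ : MulAut PSpm).toMonoidHom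
      (MonoidHom.id PSpm)))) :
    HasCore p (A ⊓ Subgroup.centralizer {(fg τ : MulAut PSpm)}) := by
  refine ⟨(MonoidHom.eqLocus (fg τ : MulAut PSpm).toMonoidHom (MonoidHom.id PSpm)).map
    MulAut.conj, ?_, ?_, ?_, ?_⟩
  · rintro _ ⟨k, hk, rfl⟩
    refine ⟨hinn k, ?_⟩
    show MulAut.conj k ∈ Subgroup.centralizer {(fg τ : MulAut PSpm)}
    rw [Subgroup.mem_centralizer_iff]
    intro z hz
    rw [Set.mem_singleton_iff] at hz
    subst hz
    have hk' : fg τ k = k := hk
    have h1 := conj_aut (fg τ : MulAut PSpm) k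
    rw [hk', mul_inv_eq_iff_eq_mul] at h1
    exact h1
  · rintro d ⟨hdA, hdC⟩ _ ⟨k, hk, rfl⟩
    have hdC' : d ∈ Subgroup.centralizer {(fg τ : MulAut PSpm)} := hdC
    rw [Subgroup.mem_centralizer_iff] at hdC'
    have hcomm := hdC' (fg τ) rfl
    have hk' : fg τ k = k := hk
    refine ⟨d k, ?_, (conj_aut d k).symm⟩
    show fg τ (d k) = d k
    have h2 := congrArg (fun a : MulAut PSpm => a k) hcomm
    simp only [MulAut.mul_apply] at h2
    rw [h2, hk']
  · rw [Subgroup.card_map_of_injective (conj_injective hm)]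
    exact hcop.symm
  · intro h
    have h1 : MulAut.conj (pm (tvS (e0 : V) 1)) ∈
        (MonoidHom.eqLocus (fg τ : MulAut PSpm).toMonoidHom (MonoidHom.id PSpm)).map
          MulAut.conj := by
      refine ⟨_, ?_, rfl⟩
      show fg τ (pm (tvS (e0 : V) 1)) = pm (tvS (e0 : V) 1)
      rw [fg_pm, fAutS_tvS, tw_e0, map_one]
    rw [h, Subgroup.mem_bot] at h1
    exact pm_tvS_ne_one hm e0_ne_zero one_ne_zero (conj_injective hm (h1.trans (map_one _).symm))

theorem finite_aut_psp [Finite F] : Finite (MulAut PSpm) := by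
  haveI := finite_psp (m := m) (F := F)
  exact Finite.of_injective (fun e : MulAut PSpm => (e : PSpm → PSpm)) DFunLike.coe_injective

theorem isFixEmb_fixF [Finite F] (τ : RingAut F) : IsFixEmb τ (fixF τ).subtype := by
  intro a
  constructor
  · intro h
    exact ⟨⟨a, (mem_fixF τ).mpr h⟩, rfl⟩
  · rintro ⟨b, rfl⟩
    exact (mem_fixF τ).mp b.2

/-- If `p` divides the number of fixed points of the field automorphism `fg τ` of order `p`, the
centralizer of `fg τ` has no non-trivial normal `p'`-subgroup. -/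
theorem core_fg_forward [NeZero m] [Finite F] (hm : 2 ≤ m) (r : ℕ) [CharP F r] (hr : r.Prime)
    (τ : RingAut F) (A : Subgroup (MulAut PSpm)) (hinn : ∀ k : PSpm, MulAut.conj k ∈ A)
    (p : ℕ) [Fact p.Prime] (hpr : p ≠ r)
    (hΓ : ∀ a : MulAut PSpm, a (pm (tvS (e0 : V) 1)) = pm (tvS (e0 : V) 1) →
      ∃ (g : ↥(Cfsg.GSp m F)) (σ : RingAut F), a = cg g * fg σ)
    (hτ : orderOf τ = p)
    (hdiv : p ∣ Nat.card ↥(MonoidHom.eqLocus (fg τ : MulAut PSpm).toMonoidHom
      (MonoidHom.id PSpm))) :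
    ¬ HasCore p (A ⊓ Subgroup.centralizer {(fg τ : MulAut PSpm)}) := by
  rintro ⟨M, hMD, hnorm, hc, hne⟩
  have hp : p.Prime := Fact.out
  haveI := finite_aut_psp (m := m) (F := F)
  obtain ⟨j, hjdef⟩ : ∃ j : ↥(fixF τ) →+* F, j = (fixF τ).subtype := ⟨_, rfl⟩
  have hj : IsFixEmb τ j := hjdef ▸ isFixEmb_fixF τ
  haveI : CharP ↥(fixF τ) r := RingHom.charP j j.injective r
  have hcent : ∀ d : MulAut PSpm, d ∈ A ⊓ Subgroup.centralizer {(fg τ : MulAut PSpm)} ↔
      d ∈ A ∧ fg τ * d = d * fg τ := by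
    intro d
    rw [Subgroup.mem_inf, Subgroup.mem_centralizer_iff]
    constructor
    · rintro ⟨h1, h2⟩
      exact ⟨h1, h2 _ rfl⟩
    · rintro ⟨h1, h2⟩
      refine ⟨h1, fun z hz => ?_⟩
      rw [Set.mem_singleton_iff] at hz
      subst hz
      exact h2
  have hθD : ∀ s : ↥(Matrix.symplecticGroup (Fin m) ↥(fixF τ)),
      (thetaA j s : MulAut PSpm) ∈ A ⊓ Subgroup.centralizer {(fg τ : MulAut PSpm)} := by
    intro s
    rw [hcent]
    obtain ⟨s', hs'⟩ := thetaA_inner j s
    exact ⟨hs' ▸ hinn _, thetaA_comm τ j hj s⟩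
  have hM1 : ∀ a ∈ M, a ^ p = 1 → a = 1 := by
    intro a ha hap
    have h1 : orderOf a ∣ p := orderOf_dvd_of_pow_eq_one hap
    have h2 : orderOf a ∣ Nat.card M := Subgroup.orderOf_dvd_natCard M ha
    have h3 : orderOf a ∣ 1 := by
      rw [← Nat.Coprime.gcd_eq_one hc]
      exact Nat.dvd_gcd h2 h1
    exact orderOf_eq_one_iff.mp (Nat.dvd_one.mp h3)
  obtain ⟨N₀, hN₀def⟩ : ∃ N₀ : Subgroup ↥(Matrix.symplecticGroup (Fin m) ↥(fixF τ)),
      N₀ = M.comap (thetaA j) := ⟨_, rfl⟩
  have hN₀mem : ∀ s, s ∈ N₀ ↔ (thetaA j s : MulAut PSpm) ∈ M := by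
    intro s
    rw [hN₀def, Subgroup.mem_comap]
  haveI hN₀ : N₀.Normal := by
    constructor
    intro n hn g
    rw [hN₀mem] at hn ⊢
    rw [map_mul, map_mul, map_inv]
    exact hnorm _ (hθD g) _ hn
  by_cases hcen : N₀ ≤ Subgroup.center _
  swap
  · -- the subgroup contains all `r`-th powers
    have h2 : p = 2 → (2 : F) ≠ 0 := by
      intro hp2 h20
      have h1 : ((2 : ℕ) : F) = 0 := by exact_mod_cast h20
      rw [CharP.cast_eq_zero_iff F r] at h1
      have := (Nat.prime_dvd_prime_iff_eq hr Nat.prime_two).mp h1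
      exact hpr (hp2.trans this.symm)
    obtain ⟨s₀, hs₀⟩ := exists_order_dvd hm τ j hj p h2 hdiv
    obtain ⟨y, hy⟩ : ∃ y : MulAut PSpm, y = thetaA j s₀ := ⟨_, rfl⟩
    rw [← hy] at hs₀
    have hy0 : orderOf y ≠ 0 := (orderOf_pos y).ne'
    have hz : orderOf (y ^ (orderOf y / p)) = p := orderOf_pow_orderOf_div hy0 hs₀
    have hmem : (y ^ (orderOf y / p)) ^ r ∈ M := by
      have h' := pow_char_mem_of_normal r N₀ hcen (s₀ ^ (orderOf y / p))
      rw [hN₀mem, map_pow, map_pow, ← hy] at h'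
      exact h'
    have hcop : Nat.Coprime (orderOf (y ^ (orderOf y / p))) r := by
      rw [hz]
      exact (Nat.coprime_primes hp hr).mpr hpr
    have hord : orderOf ((y ^ (orderOf y / p)) ^ r) = p := by
      rw [Nat.Coprime.orderOf_pow hcop, hz]
    have hdvd : p ∣ Nat.card M := hord ▸ Subgroup.orderOf_dvd_natCard M hmem
    have h1 : p ∣ 1 := by
      rw [← Nat.Coprime.gcd_eq_one hc]
      exact Nat.dvd_gcd hdvd dvd_rfl
    exact hp.one_lt.ne' (Nat.dvd_one.mp h1)
  · -- the subgroup meets the fixed-field symplectic group trivially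
    have hB1 : ∀ s : ↥(Matrix.symplecticGroup (Fin m) ↥(fixF τ)),
        (thetaA j s : MulAut PSpm) ∈ M → (thetaA j s : MulAut PSpm) = 1 := by
      intro s hs
      have h1 : s ∈ Subgroup.center _ := hcen ((hN₀mem s).mpr hs)
      obtain ⟨a, ha, hz⟩ := Cfsg.Agent.Lib.Helper40.center_scalar m (by omega) s h1
      have ha0 : a ≠ 0 := by
        rintro rfl
        rw [mul_zero] at ha
        exact zero_ne_one ha
      have hk : toGSp s ∈ (thetaS j : ↥(Cfsg.GSp m ↥(fixF τ)) →* MulAut PSpm).ker := by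
        rw [thetaS_ker hm j, Subgroup.mem_subgroupOf, Cfsg.Geo.mem_scalars_iff]
        exact ⟨Units.mk0 a ha0, hz⟩
      exact hk
    have hC1 : ∀ y ∈ M, ∀ k : PSpm, y = MulAut.conj k → y = 1 := by
      intro y hy k hk
      obtain ⟨s', rfl⟩ := pm_surjective k
      have hyr : y ∈ (cg : ↥(Cfsg.GSp m F) →* MulAut PSpm).range ⊓
          Subgroup.centralizer {(fg τ : MulAut PSpm)} :=
        ⟨⟨toGSp s', by rw [cg_toGSp, hk]⟩, (hMD hy).2⟩
      rw [inf_centralizer_fg hm τ j hj] at hyr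
      obtain ⟨k₀, hk₀⟩ := hyr
      have hcomm : ∀ s : ↥(Matrix.symplecticGroup (Fin m) ↥(fixF τ)),
          y * thetaA j s = thetaA j s * y := by
        intro s
        have hmem : y * (thetaA j s * y⁻¹ * (thetaA j s)⁻¹) ∈ M :=
          M.mul_mem hy (hnorm _ (hθD s) _ (M.inv_mem hy))
        have hmult : multH (k₀ * toGSp s * k₀⁻¹ * (toGSp s)⁻¹) = 1 := by
          rw [map_mul, map_mul, map_mul, map_inv, map_inv, multH_toGSp, inv_one, mul_one, mul_one,
            mul_inv_cancel]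
        obtain ⟨s'', hs''⟩ := exists_toGSp_of_multH _ hmult
        have heq : y * (thetaA j s * y⁻¹ * (thetaA j s)⁻¹) = thetaA j s'' := by
          show _ = thetaS j (toGSp s'')
          rw [hs'', map_mul, map_mul, map_mul, map_inv, map_inv, hk₀]
          show _ = y * (thetaA j s) * y⁻¹ * (thetaA j s)⁻¹
          group
        rw [heq] at hmem
        have h1 := hB1 s'' hmem
        rw [← heq, ← mul_assoc, ← mul_assoc, mul_inv_eq_one, mul_inv_eq_iff_eq_mul] at h1
        exact h1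
      have hfixes : ∀ (u : V) (c : F), tw τ u = u → τ c = c →
          y (pm (tvS u c)) = pm (tvS u c) := by
        intro u c hu hc'
        have hf : fAutS τ (tvS u c) = tvS u c := by rw [fAutS_tvS, hu, hc']
        obtain ⟨s₀, hs₀⟩ := conj_mem_thetaA τ j hj (tvS u c) hf
        have h1 := hcomm s₀
        rw [hs₀] at h1
        have h2 := conj_aut y (pm (tvS u c))
        rw [h1, mul_inv_cancel_right] at h2
        exact (conj_injective hm h2).symm
      have h3 := (cg_eq_one_of_fix hm τ (toGSp s') 1 (fun u c hu hc' => by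
        rw [map_one, mul_one, cg_toGSp, ← hk]
        exact hfixes u c hu hc')).1
      rw [hk, ← cg_toGSp, h3]
    apply hne
    rw [eq_bot_iff]
    intro a ha
    rw [Subgroup.mem_bot]
    have hfix : ∀ (u : V) (c : F), tw τ u = u → τ c = c →
        a (pm (tvS u c)) = pm (tvS u c) := by
      intro u c hu hc'
      obtain ⟨t, ht⟩ : ∃ t : PSpm, t = pm (tvS u c) := ⟨_, rfl⟩
      rw [← ht]
      have hyD : (MulAut.conj t : MulAut PSpm) ∈
          A ⊓ Subgroup.centralizer {(fg τ : MulAut PSpm)} := by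
        rw [hcent]
        refine ⟨hinn t, ?_⟩
        have h1 := conj_aut (fg τ : MulAut PSpm) t
        have h2 : fg τ t = t := by rw [ht, fg_pm, fAutS_tvS, hu, hc']
        rw [h2, mul_inv_eq_iff_eq_mul] at h1
        exact h1
      have hmem : a * (MulAut.conj t * a⁻¹ * (MulAut.conj t)⁻¹) ∈ M :=
        M.mul_mem ha (hnorm _ hyD _ (M.inv_mem ha))
      have heq : a * (MulAut.conj t * a⁻¹ * (MulAut.conj t)⁻¹) = MulAut.conj (a t * t⁻¹) := by
        rw [map_mul, ← conj_aut a t, map_inv]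
        group
      have h1 := hC1 _ hmem _ heq
      rw [heq] at h1
      have h2 := conj_injective hm (h1.trans (map_one _).symm)
      exact mul_inv_eq_one.mp h2
    obtain ⟨g, σ, hgσ⟩ := hΓ a (by
      have := hfix e0 1 (tw_e0 τ) (map_one τ)
      exact this)
    obtain ⟨hg1, hσ⟩ := cg_eq_one_of_fix hm τ g σ (fun u c hu hc' => by
      rw [← hgσ]
      exact hfix u c hu hc')
    have hσz := mem_zpowers_of_fix τ σ hσ
    have hσp : σ ^ p = 1 := by
      obtain ⟨k, rfl⟩ := Subgroup.mem_zpowers_iff.mp hσz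
      rw [← zpow_natCast, ← _root_.zpow_mul, mul_comm, _root_.zpow_mul, zpow_natCast, ← hτ, pow_orderOf_eq_one,
        _root_.one_zpow]
    apply hM1 a ha
    rw [hgσ, hg1, one_mul, ← map_pow, hσp, map_one]

/-- Local balance for an element of prime order `p` in a field-automorphism coset. -/
theorem balance_main [NeZero m] [Finite F] (hm : 2 ≤ m) (r : ℕ) [CharP F r] (hr : r.Prime)
    (A : Subgroup (MulAut PSpm)) (hinn : ∀ k : PSpm, MulAut.conj k ∈ A) (p : ℕ) [Fact p.Prime]
    (hpr : p ≠ r) (x : MulAut PSpm) (hord : orderOf x = p)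
    (g : ↥(Cfsg.GSp m F)) (τ : RingAut F) (hx : x = cg g * fg τ) (hτ1 : τ ≠ 1)
    (hΓ : ∀ a : MulAut PSpm, a (pm (tvS (e0 : V) 1)) = pm (tvS (e0 : V) 1) →
      ∃ (g : ↥(Cfsg.GSp m F)) (σ : RingAut F), a = cg g * fg σ) :
    Cfsg.pPrimeCore p ↥(A ⊓ Subgroup.centralizer {x}) ≠ ⊥ ↔
      (Cfsg.IsFieldAutClassPSp x ∧ Nat.Coprime p
        (Nat.card ↥(MonoidHom.eqLocus x.toMonoidHom (MonoidHom.id PSpm)))) := by
  have hp : p.Prime := Fact.out
  haveI := finite_ringAut F
  have hxp : (cg g * fg τ : MulAut PSpm) ^ p = 1 := by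
    rw [← hx, ← hord, pow_orderOf_eq_one]
  have hτp : τ ^ p = 1 := by
    have h1 := hxp
    rw [pow_cg_fg] at h1
    have h2 : (cg (nrmS τ g p)⁻¹ : MulAut PSpm) = fg (τ ^ p) := by
      rw [map_inv, inv_eq_iff_eq_inv, ← mul_eq_one_iff_eq_inv]
      exact h1
    exact eq_one_of_cg_eq_fg hm _ _ h2
  have hτo : orderOf τ = p := orderOf_eq_prime hτp hτ1
  obtain ⟨k, hk⟩ := conj_of_pow_eq_one hm τ g (by rw [hτo]; exact hxp)
  rw [← hx] at hk
  have hfield : Cfsg.IsFieldAutClassPSp x := by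
    refine ⟨(cg k)⁻¹, τ, hτ1, ?_⟩
    rw [AutPSp.stdField_iff, hk]
    group
  obtain ⟨e, he⟩ : ∃ e : MulAut PSpm ≃* MulAut PSpm, e = MulAut.conj (cg k : MulAut PSpm)⁻¹ :=
    ⟨_, rfl⟩
  have hex : e x = fg τ := by
    rw [he, MulAut.conj_apply, hk]
    group
  have hinn' : ∀ t : PSpm, MulAut.conj t ∈ A.map e.toMonoidHom := by
    intro t
    refine ⟨MulAut.conj (cg k t), hinn _, ?_⟩
    show e (MulAut.conj (cg k t)) = MulAut.conj t
    rw [he, MulAut.conj_apply, ← conj_aut]
    group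
  have hcore : Cfsg.pPrimeCore p ↥(A ⊓ Subgroup.centralizer {x}) ≠ ⊥ ↔
      HasCore p (A.map e.toMonoidHom ⊓ Subgroup.centralizer {(fg τ : MulAut PSpm)}) := by
    rw [pPrimeCore_ne_bot_iff, ← hex, hasCore_map_iff]
  have hcard : Nat.card ↥(MonoidHom.eqLocus x.toMonoidHom (MonoidHom.id PSpm)) =
      Nat.card ↥(MonoidHom.eqLocus (fg τ : MulAut PSpm).toMonoidHom (MonoidHom.id PSpm)) := by
    apply Nat.card_congr
    refine Equiv.subtypeEquiv ((cg k : MulAut PSpm)⁻¹).toEquiv (fun y => ?_)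
    show x y = y ↔ fg τ ((cg k)⁻¹ y) = (cg k)⁻¹ y
    rw [hk]
    simp only [MulAut.mul_apply]
    constructor
    · intro h
      conv_rhs => rw [← h]
      rw [MulAut.inv_apply_self]
    · intro h
      rw [h, MulAut.apply_inv_self]
  rw [hcore, hcard]
  constructor
  · intro h
    refine ⟨hfield, ?_⟩
    rw [Nat.Prime.coprime_iff_not_dvd hp]
    intro hdiv
    exact core_fg_forward hm r hr τ _ hinn' p hpr hΓ hτo hdiv h
  · rintro ⟨-, hcop⟩
    exact core_fg_backward hm τ _ hinn' p hcop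

/-- Local balance for `PSp_{2m}(q)`: for an automorphism `x` of prime order `p` different from
the characteristic that is not inner-diagonal, the `p'`-core of its centralizer (in any group of
automorphisms containing the inner ones) is non-trivial exactly when `x` is a field automorphism
and `p` does not divide the number of its fixed points. -/
theorem balance_psp [Fintype F] (r : ℕ) [CharP F r] (hr : r.Prime) (hm : 2 ≤ m)
    (A : Subgroup (MulAut PSpm)) (hinn : ∀ k : PSpm, MulAut.conj k ∈ A) (p : ℕ) [Fact p.Prime]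
    (hpr : p ≠ r) (x : MulAut PSpm) (hord : orderOf x = p)
    (hnot : ¬ Cfsg.IsInnerDiagonalAutPSp x) :
    Cfsg.pPrimeCore p ↥(A ⊓ Subgroup.centralizer {x}) ≠ ⊥ ↔
      (Cfsg.IsFieldAutClassPSp x ∧ Nat.Coprime p
        (Nat.card ↥(MonoidHom.eqLocus x.toMonoidHom (MonoidHom.id PSpm)))) := by
  classical
  haveI : NeZero m := ⟨by omega⟩
  have hp : p.Prime := Fact.out
  have key : ∃ (g : ↥(Cfsg.GSp m F)) (τ : RingAut F), x = cg g * fg τ ∧
      (∀ a : MulAut PSpm, a (pm (tvS (e0 : V) 1)) = pm (tvS (e0 : V) 1) →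
        ∃ (g : ↥(Cfsg.GSp m F)) (σ : RingAut F), a = cg g * fg σ) := by
    by_cases hcase : (2 : F) = 0 ∧ m = 2
    · obtain ⟨h2, rfl⟩ := hcase
      have hΓ : ∀ a : MulAut (Cfsg.PSp 2 F),
          a (pm (tvS (e0 : Fin 2 ⊕ Fin 2 → F) 1)) = pm (tvS (e0 : Fin 2 ⊕ Fin 2 → F) 1) →
          ∃ (g : ↥(Cfsg.GSp 2 F)) (σ : RingAut F), a = cg g * fg σ := by
        intro a ha
        apply tvStab_structure (le_refl 2)
        apply mem_tvStab_of_t0 h2
        rw [ha]
        exact ⟨e0, 1, e0_ne_zero, one_ne_zero, rfl⟩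
      have hr2 : r = 2 := by
        have h1 : ((2 : ℕ) : F) = 0 := by exact_mod_cast h2
        rw [CharP.cast_eq_zero_iff F r] at h1
        exact (Nat.prime_dvd_prime_iff_eq hr Nat.prime_two).mp h1
      have hp2 : p ≠ 2 := hr2 ▸ hpr
      have hodd : p % 2 = 1 := hp.eq_two_or_odd.resolve_left hp2
      have hx2 : x ^ 2 ∈ tvStab 2 F := Subgroup.sq_mem_of_index_two (tvStab_index h2) x
      have hxmem : x ∈ tvStab 2 F := by
        have h3 : x = (x ^ 2) ^ ((p + 1) / 2) := by
          rw [← pow_mul, show 2 * ((p + 1) / 2) = p + 1 by omega, pow_succ, ← hord,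
            pow_orderOf_eq_one, one_mul]
        rw [h3]
        exact Subgroup.pow_mem _ hx2 _
      obtain ⟨g, τ, e⟩ := tvStab_structure (le_refl 2) x hxmem
      exact ⟨g, τ, e, hΓ⟩
    · have H : RootPerm m F := root_perm hm (fun h2 => by
        by_contra h3
        exact hcase ⟨h2, by omega⟩)
      obtain ⟨g, τ, e⟩ := aut_structure hm H x
      exact ⟨g, τ, e, fun a _ => aut_structure hm H a⟩
  obtain ⟨g, τ, hx, hΓ⟩ := key
  have hτ1 : τ ≠ 1 := by
    rintro rfl
    apply hnot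
    rw [AutPSp.innerDiag_iff]
    exact ⟨g, by rw [hx, map_one, mul_one]⟩
  exact balance_main hm r hr A hinn p hpr x hord g τ hx hτ1 hΓ

end Cfsg.Agent.Lib.Helper43.AutSp4
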